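/-
`E₈(3)` has no maximal subgroup with socle `L₂(7)`: modules of `SL₂(7)` over the field with three elements.
-/
import Cfsg.Agent.KSG.E83.Sign

set_option autoImplicit false

namespace CL.E87
open Module Function Finset
open scoped MatrixGroups

/-- the field -/
abbrev k3 := ZMod 3
/-- the group -/
abbrev S7 := SL(2, ZMod 7)
/-- order 7 -/
def es : S7 := ⟨!![1, 1; 0, 1], by decide⟩
/-- order 3 -/
def eu : S7 := ⟨!![2, 0; 0, 4], by decide⟩
/-- order 4 -/
def ew : S7 := ⟨!![0, 6; 1, 0], by decide⟩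
/-- order 8, `eg ^ 2 = ew` -/
def eg : S7 := ⟨!![2, 5; 2, 2], by decide⟩
/-- order 4, inverts `eg` -/
def eb : S7 := ⟨!![3, 2; 2, 4], by decide⟩

variable {W : Type} [AddCommGroup W] [Module k3 W]

/-- the dimension of the fixed space -/
noncomputable def fx (a : End k3 W) : ℕ := finrank k3 (a.eigenspace 1)

variable (ρ : S7 →* End k3 W)

/-- the projection onto the fixed space of `es` -/
noncomputable def e7 : End k3 W := ∑ i ∈ range 7, ρ es ^ i
/-- the norm of `eu` -/
noncomputable def NN : End k3 W := 1 + ρ eu + ρ eu ^ 2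
/-- a square root of the norm -/
noncomputable def yy : End k3 W := ρ eu - ρ eu ^ 2
/-- the Hecke operator -/
noncomputable def TT : End k3 W := e7 ρ * ρ ew * e7 ρ
/-- its semisimple part -/
noncomputable def RR : End k3 W := TT ρ - NN ρ * e7 ρ
/-- multiplicity of the trivial module -/
noncomputable def ap : ℕ := finrank k3 ((RR ρ).eigenspace 1)
/-- multiplicity of the Steinberg module -/
noncomputable def am : ℕ := finrank k3 ((RR ρ).eigenspace (-1))
/-- the fixed space -/
noncomputable def Fix : Submodule k3 W := ⨅ g, (ρ g).eigenspace 1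
/-- invariant subspaces -/
def Inv (U : Submodule k3 W) : Prop := ∀ g, ∀ v ∈ U, ρ g v ∈ U

theorem mem_Fix {v : W} : v ∈ Fix ρ ↔ ∀ g, ρ g v = v := by
  simp [Fix, Submodule.mem_iInf]

/-- a normal subgroup `L₂(7)` with trivial centraliser on which `H` acts as a subgroup of `PGL₂(7)` -/
structure Emb {G : Type*} [Group G] (H : Subgroup G) (θ : S7 →* G) : Prop where
  neg : θ (-1) = 1
  ker : ∀ g, θ g = 1 → g = 1 ∨ g = -1
  le : ∀ g, θ g ∈ H
  cen : ∀ h ∈ H, (∀ g, Commute h (θ g)) → h = 1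
  gl : ∀ h ∈ H, ∃ M : Matrix (Fin 2) (Fin 2) (ZMod 7), M.det ≠ 0 ∧
    ∀ g : S7, ∃ g' : S7, M * g.1 = g'.1 * M ∧ h * θ g * h⁻¹ = θ g'

end CL.E87
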