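/-
`E₈(3)`, `L₂(7)`: counting stable lines.
-/
import Cfsg.Agent.KSG.E87.Defs

set_option autoImplicit false
set_option maxHeartbeats 400000

namespace CL.E87.CntA
open Module Function Finset
open scoped MatrixGroups

variable {W : Type} [AddCommGroup W] [Module k3 W]

variable [FiniteDimensional k3 W] {G : Type*} [Group G] [Finite G] (ρ : G →* End k3 W)

/-- the stabiliser of `± w` -/
def St (w : W) : Subgroup G where
  carrier := {g | ρ g w = w ∨ ρ g w = -w}
  one_mem' := Or.inl (by simp)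
  mul_mem' := by
    rintro a b (ha | ha) (hb | hb) <;> simp [ha, hb]
  inv_mem' := by
    intro a ha
    have e : ∀ v, ρ a⁻¹ (ρ a v) = v := fun v => by rw [← End.mul_apply, ← map_mul, inv_mul_cancel, map_one]; rfl
    have := e w
    rcases ha with ha | ha <;> rw [ha] at this
    · exact Or.inl this
    · exact Or.inr (by rw [map_neg, neg_eq_iff_eq_neg] at this; exact this)

omit [FiniteDimensional k3 W] [Finite G] in
theorem can (g : G) (v : W) : ρ g⁻¹ (ρ g v) = v := by
  rw [← End.mul_apply, ← map_mul, inv_mul_cancel, map_one]; rfl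

omit [FiniteDimensional k3 W] [Finite G] in
theorem St_ne [IsSimpleGroup G] (h2 : 2 < Nat.card G) (hN : ∀ v, (∀ g, ρ g v = v) → v = 0) {w : W} (h0 : w ≠ 0) :
    St ρ w ≠ ⊤ := fun e => by
  have h1 : ∀ g, ρ g w = w ∨ ρ g w = -w := fun g => (e.ge (Subgroup.mem_top g) : g ∈ St ρ w)
  let K : Subgroup G :=
    { carrier := {g | ρ g w = w}
      one_mem' := by simp
      mul_mem' := fun {a b} (ha : ρ a w = w) (hb : ρ b w = w) => by simp [ha, hb]
      inv_mem' := fun {a} (ha : ρ a w = w) => by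
        have := can ρ a w
        rwa [ha] at this }
  have hK : K.Normal := ⟨fun k (hk : ρ k w = w) g => by
    change ρ (g * k * g⁻¹) w = w
    have := can ρ g⁻¹ w
    rw [inv_inv] at this
    rw [map_mul, map_mul, End.mul_apply, End.mul_apply]
    rcases h1 g⁻¹ with e | e <;> rw [e] at this ⊢
    · rw [hk, this]
    · rw [map_neg (ρ k), hk, this]⟩
  rcases hK.eq_bot_or_eq_top with e | e
  · have := Nat.card_le_card_of_injective (fun g => (⟨ρ g w, h1 g⟩ : ({w, -w} : Set W))) fun a b hab => by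
      have h3 : ρ a w = ρ b w := congrArg Subtype.val hab
      have : a⁻¹ * b ∈ K := by
        change ρ (a⁻¹ * b) w = w
        rw [map_mul, End.mul_apply, ← h3, can]
      exact inv_mul_eq_one.1 (Subgroup.mem_bot.1 (e ▸ this))
    rw [Nat.card_coe_set_eq] at this
    have h4 := Set.ncard_insert_le w {-w}
    rw [Set.ncard_singleton] at h4
    omega
  · exact h0 (hN w fun g => (e.ge (Subgroup.mem_top g) : g ∈ K))

/-- For w ∈ Y, St w = {g | ρ g w = w ∨ ρ g w = - w} is a subgroup containing H. It is not ⊤: else {g | ρ g w = w} is normal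
of index ≤ 2 (kernel of the sign), so ⊥ (then |G| ≤ 2) or ⊤ (then w = 0). So St w = H. If ρ g w = w' (w, w' ∈ Y) then g
normalises H, and N(H) = H (H ≤ N(H); N(H) = ⊤ makes H normal, ≠ ⊥, ≠ ⊤). The map Y × C → fixed vectors of X,
(w, g) ↦ ρ g w, has fibres of size ≤ |H ⊓ C|: (w, g) ↦ g₀⁻¹ g is injective on the fibre of (w₀, g₀) with values in H ⊓ C
(`Finset.card_le_mul_card_image` or `Nat.card_le_card_of_injective` into the product). -/
theorem cnt [IsSimpleGroup G] (h2 : 2 < Nat.card G) (hN : ∀ v, (∀ g, ρ g v = v) → v = 0) {H : Subgroup G} (hH : IsCoatom H)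
    (h0 : H ≠ ⊥) {Y : Set W} (hY : ∀ w ∈ Y, w ≠ 0 ∧ ∀ h ∈ H, ρ h w = w ∨ ρ h w = -w) {C : Subgroup G} {U : Submodule k3 W}
    (hU : ∀ g ∈ C, ∀ w ∈ Y, ρ g w ∈ U) : Y.ncard * Nat.card C ≤ Nat.card ↥(H ⊓ C) * 3 ^ finrank k3 U := by
  have hS : ∀ w ∈ Y, St ρ w = H := fun w hw =>
    ((hH.le_iff.1 (show H ≤ St ρ w from (hY w hw).2)).resolve_left (St_ne ρ h2 hN (hY w hw).1))
  have hn : Subgroup.normalizer (H : Set G) = H := (hH.le_iff.1 Subgroup.le_normalizer).resolve_left fun e =>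
    (Subgroup.normalizer_eq_top_iff.1 e).eq_bot_or_eq_top.elim h0 hH.1
  have hm : ∀ w ∈ Y, ∀ g, ρ g w ∈ Y → g ∈ H := fun w hw g hg => by
    rw [← hn]
    refine Subgroup.mem_normalizer_fintype fun h hh => ?_
    rw [← hS _ hg]
    change ρ (g * h * g⁻¹) (ρ g w) = ρ g w ∨ ρ (g * h * g⁻¹) (ρ g w) = -ρ g w
    rw [map_mul, map_mul, End.mul_apply, End.mul_apply, can]
    rcases (hY w hw).2 h hh with e | e <;> simp [e]
  have : Finite W := Module.finite_of_finite k3
  rw [← Nat.card_coe_set_eq, ← Nat.card_prod, show 3 ^ finrank k3 U = Nat.card U by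
    rw [Module.natCard_eq_pow_finrank (K := k3), Nat.card_zmod], ← Nat.card_prod]
  rcases isEmpty_or_nonempty (Y × C) with hE | hE
  · simp
  let f : Y × C → U := fun p => ⟨ρ p.2 p.1, hU _ p.2.2 _ p.1.2⟩
  have hf : ∀ p, ρ (invFun f (f p)).2 (invFun f (f p)).1 = ρ p.2 p.1 := fun p =>
    congrArg Subtype.val (invFun_eq (f := f) ⟨p, rfl⟩)
  refine Nat.card_le_card_of_injective (fun p => (⟨((invFun f (f p)).2 : G)⁻¹ * p.2, hm _ p.1.2 _ (by
    rw [map_mul, End.mul_apply, ← hf, can]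
    exact (invFun f (f p)).1.2), C.mul_mem (C.inv_mem (invFun f (f p)).2.2) p.2.2⟩, f p)) fun p p' e => ?_
  have e2 : f p = f p' := congrArg Prod.snd e
  have e1 : ((invFun f (f p)).2 : G)⁻¹ * p.2 = ((invFun f (f p')).2 : G)⁻¹ * p'.2 :=
    congrArg (fun x => (x.1 : G)) e
  rw [e2, mul_right_inj] at e1
  have e3 : ρ p.2 p.1 = ρ p'.2 p'.1 := congrArg Subtype.val e2
  refine Prod.ext (Subtype.ext ?_) (Subtype.ext e1)
  rw [← can ρ p.2 p.1, e3, e1, can]

end CL.E87.CntA
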