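/-
`E₈(3)`, `L₂(7)`: fixed spaces of a four-group.
-/
import Cfsg.Agent.KSG.E87.Defs

set_option autoImplicit false

namespace CL.E87.FourA
open Module Function Finset Module.End
open scoped MatrixGroups

variable {W : Type} [AddCommGroup W] [Module k3 W] [FiniteDimensional k3 W]

theorem sp {U : Submodule k3 W} {a b : End k3 W} (hb : ∀ v ∈ U, b v ∈ U)
    (hb2 : ∀ v ∈ U, b (b v) = v) (hab : ∀ v ∈ U, a (b v) = b (a v)) (c : k3) :
    finrank k3 ↥(U ⊓ a.eigenspace c) = finrank k3 ↥(U ⊓ a.eigenspace c ⊓ b.eigenspace 1) +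
      finrank k3 ↥(U ⊓ a.eigenspace c ⊓ b.eigenspace (-1)) := by
  refine CL.E83.finrank_split2 (by decide) (fun v hv => ⟨hb v hv.1, ?_⟩) fun v hv => hb2 v hv.1
  have h := mem_eigenspace_iff.1 hv.2
  exact mem_eigenspace_iff.2 (by rw [hab v hv.1, h, map_smul])

theorem four {U : Submodule k3 W} {a b : End k3 W} (ha : ∀ v ∈ U, a v ∈ U) (hb : ∀ v ∈ U, b v ∈ U)
    (ha2 : ∀ v ∈ U, a (a v) = v) (hb2 : ∀ v ∈ U, b (b v) = v) (hab : ∀ v ∈ U, a (b v) = b (a v)) :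
    finrank k3 ↥(U ⊓ a.eigenspace 1) + finrank k3 ↥(U ⊓ b.eigenspace 1) + finrank k3 ↥(U ⊓ (a * b).eigenspace 1) =
      finrank k3 U + 2 * finrank k3 ↥(U ⊓ a.eigenspace 1 ⊓ b.eigenspace 1) := by
  have e0 := CL.E83.finrank_split2 (K := k3) (by decide) ha ha2
  have e1 := sp hb hb2 hab 1
  have e2 := sp hb hb2 hab (-1)
  have e3 := sp ha ha2 (fun v hv => (hab v hv).symm) 1
  have e4 := sp (a := a * b) ha ha2 (fun v hv => by rw [mul_apply, mul_apply, hab v hv]) 1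
  have h : ∀ c : k3, U ⊓ (a * b).eigenspace 1 ⊓ a.eigenspace c = U ⊓ a.eigenspace c ⊓ b.eigenspace c := by
    intro c
    ext v
    simp only [Submodule.mem_inf, mem_eigenspace_iff, mul_apply, one_smul]
    constructor
    · rintro ⟨⟨h1, h2⟩, h3⟩
      refine ⟨⟨h1, h3⟩, ?_⟩
      rw [← ha2 _ (hb v h1), h2, h3]
    · rintro ⟨⟨h1, h2⟩, h3⟩
      refine ⟨⟨h1, ?_⟩, h2⟩
      rw [h3, ← h2, ha2 v h1]
  rw [h, h] at e4
  rw [inf_right_comm U (b.eigenspace 1), inf_right_comm U (b.eigenspace 1)] at e3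
  omega

end CL.E87.FourA
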