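/-
`E₈(3)`, `L₂(7)`: free modules of the symmetric group of degree three.
-/
import Cfsg.Agent.KSG.E87.Defs

set_option autoImplicit false

namespace CL.E87.S3
open Module Function Finset

variable {W : Type} [AddCommGroup W] [Module k3 W]

theorem three (v : W) : v + v + v = 0 := by
  have : (3 : k3) • v = 0 := by rw [show (3 : k3) = 0 from rfl, zero_smul]
  rw [← this, show (3 : k3) = 1 + 1 + 1 from rfl, add_smul, add_smul, one_smul]

variable [FiniteDimensional k3 W]

theorem s3 {U : Submodule k3 W} {u τ : End k3 W} (hu : ∀ v ∈ U, u v ∈ U) (hτ : ∀ v ∈ U, τ v ∈ U)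
    (hu3 : ∀ v ∈ U, u (u (u v)) = v) (hτ2 : ∀ v ∈ U, τ (τ v) = v) (hc : ∀ v ∈ U, τ (u v) = u (u (τ v)))
    (hf : ∀ v ∈ U, u v = v → ∃ x ∈ U, v = x + u x + u (u x)) :
    3 * finrank k3 ↥(U ⊓ τ.eigenspace 1) ≤ 2 * finrank k3 U := by
  have hs := CL.E83.finrank_split2 (K := k3) (by decide) hτ hτ2
  set P := U ⊓ τ.eigenspace 1 with hP
  set M := U ⊓ τ.eigenspace (-1) with hM
  set y : End k3 W := u - u * u with hy
  have yap : ∀ v, y v = u v - u (u v) := fun v => rfl
  have hc2 : ∀ v ∈ U, τ (u (u v)) = u (τ v) := fun v hv => by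
    rw [hc _ (hu v hv), hc v hv, hu3 _ (hu _ (hτ v hv))]
  have hyy : ∀ v ∈ U, y (y v) = v + u v + u (u v) := fun v hv => by
    rw [yap, yap]
    simp only [map_sub, hu3 v hv]
    rw [← sub_eq_zero, ← neg_eq_zero, ← three v]; abel
  have h1 : P.map y ≤ M := by
    rintro _ ⟨v, ⟨hv, hv'⟩, rfl⟩
    have hv1 : τ v = v := by simpa using hv'
    refine ⟨U.sub_mem (hu v hv) (hu _ (hu v hv)), ?_⟩
    change y v ∈ τ.eigenspace (-1)
    rw [End.mem_eigenspace_iff, yap, map_sub, hc v hv, hc2 v hv, hv1]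
    simp
  have h2 : P ⊓ LinearMap.ker y ≤ (P.map y).map y := by
    rintro v ⟨⟨hv, hv'⟩, hk⟩
    have hv1 : τ v = v := by simpa using hv'
    have hk1 : u v = u (u v) := sub_eq_zero.1 (by rw [← yap]; exact hk)
    have hk2 : u v = v := by
      have := congrArg (fun x => u (u x)) hk1
      simp only [hu3 v hv] at this
      exact this.symm
    obtain ⟨x, hx, e⟩ := hf v hv hk2
    have hx' : -(x + τ x) ∈ U := U.neg_mem (U.add_mem hx (hτ x hx))
    refine ⟨_, ⟨-(x + τ x), ⟨hx', ?_⟩, rfl⟩, ?_⟩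
    · change _ ∈ τ.eigenspace 1
      rw [End.mem_eigenspace_iff, map_neg, map_add, hτ2 x hx, one_smul, add_comm]
    · have e2 : v = τ x + u (τ x) + u (u (τ x)) := by
        have := congrArg τ e
        rw [hv1, map_add, map_add, hc x hx, hc2 x hx] at this
        rw [this]; abel
      rw [hyy _ hx']
      simp only [map_neg, map_add]
      have e3 : v = -(v + v) := by rw [eq_neg_iff_add_eq_zero, ← three v]; abel
      rw [e3]; nth_rewrite 1 [e]; nth_rewrite 1 [e2]; abel
  have h3 : finrank k3 (P.map y) + finrank k3 ↥(P ⊓ LinearMap.ker y) = finrank k3 P := by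
    have := LinearMap.finrank_range_add_finrank_ker (y.domRestrict P)
    rw [LinearMap.range_domRestrict, LinearMap.ker_domRestrict] at this
    rw [← this, ← Submodule.finrank_map_subtype_eq P (Submodule.comap _ _), Submodule.map_comap_subtype]
  have h4 := Submodule.finrank_mono h1
  have h5 := Submodule.finrank_mono h2
  have h6 := Submodule.finrank_map_le y (P.map y)
  omega

end CL.E87.S3
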