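/-
`E₈(3)`, `L₂(7)`: fixed spaces of operators of order seven.
-/
import Cfsg.Agent.KSG.E87.Defs

set_option autoImplicit false
set_option maxHeartbeats 400000

namespace CL.E87.Six
open Module Function Finset
open scoped MatrixGroups

variable {W : Type} [AddCommGroup W] [Module k3 W]

variable [FiniteDimensional k3 W]

theorem le_conj {G : Type*} [Group G] (ρ : G →* End k3 W) (g x : G) : fx (ρ x) ≤ fx (ρ (g * x * g⁻¹)) := by
  have hi : Injective (ρ g) := fun a b e => by
    have := congrArg (ρ g⁻¹) e
    rwa [← End.mul_apply, ← End.mul_apply, ← map_mul, inv_mul_cancel, map_one, End.one_apply, End.one_apply] at this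
  have h : ∀ v ∈ (ρ x).eigenspace 1, ρ g v ∈ (ρ (g * x * g⁻¹)).eigenspace 1 := fun v hv => by
    rw [End.mem_eigenspace_iff, one_smul] at hv ⊢
    rw [← End.mul_apply, ← map_mul, inv_mul_cancel_right, map_mul, End.mul_apply, hv]
  exact LinearMap.finrank_le_finrank_of_injective (f := (ρ g).restrict h)
    fun a b e => Subtype.ext (hi (congrArg Subtype.val e))

theorem fx_conj {G : Type*} [Group G] (ρ : G →* End k3 W) (g x : G) : fx (ρ (g * x * g⁻¹)) = fx (ρ x) := by
  refine le_antisymm ?_ (le_conj ρ g x)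
  have := le_conj ρ g⁻¹ (g * x * g⁻¹)
  rwa [show g⁻¹ * (g * x * g⁻¹) * g⁻¹⁻¹ = x by group] at this

/-- the number of fixed vectors -/
theorem card_fix (U : Submodule k3 W) : Nat.card U = 3 ^ finrank k3 U := by
  rw [Module.natCard_eq_pow_finrank (K := k3), Nat.card_zmod]

theorem pw (k : ℕ) : 3 ^ k % 7 = 3 ^ (k % 6) % 7 := by
  conv_lhs => rw [← Nat.div_add_mod k 6, pow_add, pow_mul, Nat.mul_mod, Nat.pow_mod]
  simp

theorem six {a : End k3 W} (ha : a ^ 7 = 1) : fx a % 6 = finrank k3 W % 6 := by
  classical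
  haveI : Finite W := Module.finite_of_finite k3
  haveI := Fintype.ofFinite W
  haveI : Fact (Nat.Prime 7) := ⟨by norm_num⟩
  let f : Function.End W := fun v => a v
  have hf : f ^ 7 ^ 1 = 1 := by
    have : ∀ n : ℕ, ∀ v, (f ^ n) v = (a ^ n) v := fun n => by
      induction n with
      | zero => exact fun _ => rfl
      | succ n ih => exact fun v => by rw [pow_succ, pow_succ]; exact ih (a v)
    funext v
    rw [pow_one, this, ha]
    rfl
  have h := Equiv.Perm.card_fixedPoints_modEq hf
  have e : Nat.card f.fixedPoints = Nat.card (a.eigenspace 1) :=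
    Nat.card_congr (Equiv.subtypeEquivRight fun v => by
      rw [End.mem_eigenspace_iff, one_smul]; rfl)
  rw [← Nat.card_eq_fintype_card, ← Nat.card_eq_fintype_card, e, card_fix,
    Module.natCard_eq_pow_finrank (K := k3), Nat.card_zmod, Nat.ModEq, pw, pw (finrank k3 (a.eigenspace 1))] at h
  rw [fx]
  have h1 := Nat.mod_lt (finrank k3 W) (show 0 < 6 by norm_num)
  have h2 := Nat.mod_lt (finrank k3 (a.eigenspace 1)) (show 0 < 6 by norm_num)
  generalize finrank k3 W % 6 = m at h h1
  generalize finrank k3 (a.eigenspace 1) % 6 = n at h h2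
  interval_cases m <;> interval_cases n <;> simp_all

end CL.E87.Six
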