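/-
`E₈(3)`, `L₂(7)`: four-groups and free modules of the symmetric group of degree three.
-/
import Cfsg.Agent.KSG.E87.FourA
import Cfsg.Agent.KSG.E87.S3
import Cfsg.Agent.KSG.E87.Six

set_option autoImplicit false

namespace CL.E87
open Module Function Finset
open scoped MatrixGroups

variable {W : Type} [AddCommGroup W] [Module k3 W]

variable [FiniteDimensional k3 W]

/-- split `U` under a and then each piece under b (`CL.E83.finrank_split2`): with the four joint eigenspaces ++, +-, -+, --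
one has dim U = sum of all four, a: ++ and +-, b: ++ and -+, a b: ++ and -- -/
theorem four {U : Submodule k3 W} {a b : End k3 W} (ha : ∀ v ∈ U, a v ∈ U) (hb : ∀ v ∈ U, b v ∈ U)
    (ha2 : ∀ v ∈ U, a (a v) = v) (hb2 : ∀ v ∈ U, b (b v) = v) (hab : ∀ v ∈ U, a (b v) = b (a v)) :
    finrank k3 ↥(U ⊓ a.eigenspace 1) + finrank k3 ↥(U ⊓ b.eigenspace 1) + finrank k3 ↥(U ⊓ (a * b).eigenspace 1) =
      finrank k3 U + 2 * finrank k3 ↥(U ⊓ a.eigenspace 1 ⊓ b.eigenspace 1) := by
  exact FourA.four ha hb ha2 hb2 hab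

/-- y = u - u² has y² = 1 + u + u², y³ = 0 on U, ker y = ker (u - 1), τ y = - y τ; U = U+ ⊕ U- under τ, y swaps them.
dim U+ = dim (ker y ⊓ U+) + dim y U+, y U+ ≤ U-, and ker y ⊓ U+ ≤ y (y U+) (if v = y² x with x = x+ + x-, then y² x- = 0
by taking τ-parts), of dimension ≤ dim y U+ ≤ dim U-. So dim U+ ≤ 2 dim U-. -/
theorem s3 {U : Submodule k3 W} {u τ : End k3 W} (hu : ∀ v ∈ U, u v ∈ U) (hτ : ∀ v ∈ U, τ v ∈ U)
    (hu3 : ∀ v ∈ U, u (u (u v)) = v) (hτ2 : ∀ v ∈ U, τ (τ v) = v) (hc : ∀ v ∈ U, τ (u v) = u (u (τ v)))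
    (hf : ∀ v ∈ U, u v = v → ∃ x ∈ U, v = x + u x + u (u x)) :
    3 * finrank k3 ↥(U ⊓ τ.eigenspace 1) ≤ 2 * finrank k3 U := by
  exact S3.s3 hu hτ hu3 hτ2 hc hf

theorem fx_conj {G : Type*} [Group G] (ρ : G →* End k3 W) (g x : G) : fx (ρ (g * x * g⁻¹)) = fx (ρ x) := by
  exact Six.fx_conj ρ g x

/-- the number of fixed vectors -/
theorem card_fix (U : Submodule k3 W) : Nat.card U = 3 ^ finrank k3 U := by
  exact Six.card_fix U

/-- a fixed point free operator of order 7: the orbits on the nonzero vectors of `U` have length 7, so 3^d ≡ 1 mod 7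
(`IsPGroup.card_modEq_card_fixedPoints` for `zpowers` / `Multiplicative (ZMod 7)` acting on `U`, or
`Function.card_fixedPoints_modEq` / `Equiv.Perm.card_fixedPoints_modEq`), and 3 has order 6 mod 7. In general
dim W = fx a + dim (ker e), e = ∑_{i<7} a^i idempotent with range the fixed space. -/
theorem six {a : End k3 W} (ha : a ^ 7 = 1) : fx a % 6 = finrank k3 W % 6 := by
  exact Six.six ha

end CL.E87
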