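/-
`E₈(3)`, `L₂(7)`: the number of stable lines in the fixed space.
-/
import Cfsg.Agent.KSG.E87.Defs

set_option autoImplicit false

namespace CL.E87.Ysz
open Module Function Finset
open scoped MatrixGroups

variable {W : Type} [AddCommGroup W] [Module k3 W]

variable [FiniteDimensional k3 W] {G : Type*} [Group G] [Finite G] (ρ : G →* End k3 W)

theorem ncard_sub (U : Submodule k3 W) : (U : Set W).ncard = 3 ^ finrank k3 U := by
  have := Module.natCard_eq_pow_finrank (K := k3) (V := U)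
  rw [Nat.card_zmod] at this
  exact this

omit [Finite G] in
theorem ysz {H : Subgroup G} {θ : S7 →* G} (hθ : Emb H θ)
    (hi : ∀ h ∈ H, ∀ h' ∈ H, h ∈ θ.range ∨ h' ∈ θ.range ∨ h * h' ∈ θ.range) :
    ∃ a b, a + b = finrank k3 (Fix (ρ.comp θ)) ∧ 3 ^ a + 3 ^ b ≤
      {w | w ∈ Fix (ρ.comp θ) ∧ w ≠ 0 ∧ ∀ h ∈ H, ρ h w = w ∨ ρ h w = -w}.ncard + 2 := by
  have : Finite W := Module.finite_of_finite k3
  set M := Fix (ρ.comp θ) with hM
  have fixr : ∀ x ∈ θ.range, ∀ v ∈ M, ρ x v = v := by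
    rintro _ ⟨g, rfl⟩ v hv
    exact (mem_Fix _).1 hv g
  have inv : ∀ h ∈ H, ∀ v ∈ M, ρ h v ∈ M := fun h hh v hv => by
    refine (mem_Fix _).2 fun g => ?_
    obtain ⟨_, -, hg⟩ := hθ.gl h⁻¹ (inv_mem hh)
    obtain ⟨g', -, e⟩ := hg g
    have e' : θ g * h = h * θ g' := by rw [← e]; group
    change ρ (θ g) (ρ h v) = ρ h v
    rw [← End.mul_apply, ← map_mul, e', map_mul, End.mul_apply, fixr _ ⟨g', rfl⟩ v hv]
  obtain ⟨h₀, hh₀, h2, h3⟩ : ∃ h₀ ∈ H, (∀ v ∈ M, ρ h₀ (ρ h₀ v) = v) ∧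
      ∀ h ∈ H, ∀ v ∈ M, ρ h v = v ∨ ρ h v = ρ h₀ v := by
    by_cases hc : ∀ h ∈ H, h ∈ θ.range
    · exact ⟨1, one_mem _, fun v _ => by simp, fun h hh v hv => .inl (fixr h (hc h hh) v hv)⟩
    · push Not at hc
      obtain ⟨h₀, hh₀, hn⟩ := hc
      have h2 : ∀ v ∈ M, ρ h₀ (ρ h₀ v) = v := fun v hv => by
        rw [← End.mul_apply, ← map_mul]
        exact fixr _ (((hi h₀ hh₀ h₀ hh₀).resolve_left hn).resolve_left hn) v hv
      refine ⟨h₀, hh₀, h2, fun h hh v hv => ?_⟩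
      rcases hi h hh h₀ hh₀ with a | a | a
      · exact .inl (fixr h a v hv)
      · exact (hn a).elim
      · right
        have := fixr _ a _ (inv h₀ hh₀ v hv)
        rwa [map_mul, End.mul_apply, h2 v hv] at this
  have h0 : (2 : k3) ≠ 0 := by decide
  refine ⟨_, _, (CL.E83.finrank_split2 h0 (inv h₀ hh₀) h2).symm, ?_⟩
  rw [← ncard_sub, ← ncard_sub, ← Set.ncard_union_add_ncard_inter _ _ (Set.toFinite _) (Set.toFinite _)]
  set Y := {w | w ∈ M ∧ w ≠ 0 ∧ ∀ h ∈ H, ρ h w = w ∨ ρ h w = -w}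
  have s1 : ((M ⊓ (ρ h₀).eigenspace 1 : Submodule k3 W) : Set W) ∪ (M ⊓ (ρ h₀).eigenspace (-1) : Submodule k3 W) ⊆
      insert 0 Y := by
    intro w hw
    by_cases w0 : w = 0
    · exact .inl w0
    · right
      rcases hw with ⟨a, b⟩ | ⟨a, b⟩
      · have b' := End.mem_eigenspace_iff.1 b
        rw [one_smul] at b'
        exact ⟨a, w0, fun h hh => .inl ((h3 h hh w a).elim id fun e => e.trans b')⟩
      · have b' := End.mem_eigenspace_iff.1 b
        rw [neg_smul, one_smul] at b'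
        exact ⟨a, w0, fun h hh => (h3 h hh w a).imp id fun e => e.trans b'⟩
  have s2 : ((M ⊓ (ρ h₀).eigenspace 1 : Submodule k3 W) : Set W) ∩ (M ⊓ (ρ h₀).eigenspace (-1) : Submodule k3 W) ⊆
      {0} := by
    rintro w ⟨⟨-, a⟩, -, b⟩
    have := (End.mem_eigenspace_iff.1 a).symm.trans (End.mem_eigenspace_iff.1 b)
    rw [← sub_eq_zero, ← sub_smul, smul_eq_zero, sub_neg_eq_add, one_add_one_eq_two] at this
    exact this.resolve_left h0
  have c1 := (Set.ncard_le_ncard s1 (Set.toFinite _)).trans (Set.ncard_insert_le 0 Y)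
  have c2 := Set.ncard_le_ncard s2 (Set.toFinite _)
  rw [Set.ncard_singleton] at c2
  omega

end CL.E87.Ysz
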