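/-
`E₈(3)`, `L₂(7)`: counting stable lines.
-/
import Cfsg.Agent.KSG.E87.Four
import Cfsg.Agent.KSG.E87.CntA
import Cfsg.Agent.KSG.E87.Ysz

set_option autoImplicit false

namespace CL.E87
open Module Function Finset
open scoped MatrixGroups

variable {W : Type} [AddCommGroup W] [Module k3 W]

variable [FiniteDimensional k3 W] {G : Type*} [Group G] [Finite G] (ρ : G →* End k3 W)

/-- For w ∈ Y, St w = {g | ρ g w = w ∨ ρ g w = - w} is a subgroup containing H. It is not ⊤: else {g | ρ g w = w} is normal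
of index ≤ 2 (kernel of the sign), so ⊥ (then |G| ≤ 2) or ⊤ (then w = 0). So St w = H. If ρ g w = w' (w, w' ∈ Y) then g
normalises H, and N(H) = H (H ≤ N(H); N(H) = ⊤ makes H normal, ≠ ⊥, ≠ ⊤). The map Y × C → fixed vectors of X,
(w, g) ↦ ρ g w, has fibres of size ≤ |H ⊓ C|: (w, g) ↦ g₀⁻¹ g is injective on the fibre of (w₀, g₀) with values in H ⊓ C
(`Finset.card_le_mul_card_image` or `Nat.card_le_card_of_injective` into the product). -/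
theorem cnt [IsSimpleGroup G] (h2 : 2 < Nat.card G) (hN : ∀ v, (∀ g, ρ g v = v) → v = 0) {H : Subgroup G} (hH : IsCoatom H)
    (h0 : H ≠ ⊥) {Y : Set W} (hY : ∀ w ∈ Y, w ≠ 0 ∧ ∀ h ∈ H, ρ h w = w ∨ ρ h w = -w) {C : Subgroup G} {U : Submodule k3 W}
    (hU : ∀ g ∈ C, ∀ w ∈ Y, ρ g w ∈ U) : Y.ncard * Nat.card C ≤ Nat.card ↥(H ⊓ C) * 3 ^ finrank k3 U := by
  exact CntA.cnt ρ h2 hN hH h0 hY hU

/-- M = Fix (ρ ∘ θ) is H-invariant (`Emb.gl`). If H ≤ range θ, all nonzero vectors of M. Otherwise fix h₀ ∈ H outside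
range θ; h₀² ∈ range θ, every h ∈ H is in range θ or h h₀ is (`hi`), so h acts on M as 1 or as h₀; M = M+ ⊕ M-
(`CL.E83.finrank_split2`), Y ⊇ (M+ ∪ M-) minus 0, of size 3^a + 3^b - 2 (`card_fix`). -/
theorem ysz {H : Subgroup G} {θ : S7 →* G} (hθ : Emb H θ)
    (hi : ∀ h ∈ H, ∀ h' ∈ H, h ∈ θ.range ∨ h' ∈ θ.range ∨ h * h' ∈ θ.range) :
    ∃ a b, a + b = finrank k3 (Fix (ρ.comp θ)) ∧ 3 ^ a + 3 ^ b ≤
      {w | w ∈ Fix (ρ.comp θ) ∧ w ≠ 0 ∧ ∀ h ∈ H, ρ h w = w ∨ ρ h w = -w}.ncard + 2 := by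
  exact Ysz.ysz ρ hθ hi

end CL.E87
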