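/-
`E₈(3)`, `L₂(7)`: eigenspaces over the prime field and over its algebraic closure.
-/
import Cfsg.Agent.KSG.E87.Alg
import Cfsg.Agent.KSG.E87.X7
import Cfsg.Agent.S4443

set_option autoImplicit false
set_option maxRecDepth 20000
set_option backward.isDefEq.respectTransparency false

namespace CL.E87.LinkX
open Module Function Finset CL.Chev CL.AltE Cfsg.Lie
open CL.E82 (R8)
open CL.E83 (K3 G3)
open CL.E81 (rho rho_apply psi_x rG_x)

theorem rho_eq (g : G3) : rho g = toEnd _ K3 ((adj chevE8 (ZMod 3) g).map (algebraMap (ZMod 3) K3)) := by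
  have := (stG chevE8 (ZMod 3)).hom_ext_x stG_top (f := rho.toHomUnits)
    (f' := ((toEnd _ K3).comp ((algebraMap (ZMod 3) K3).mapMatrix.toMonoidHom.comp (adj chevE8 (ZMod 3)))).toHomUnits)
    fun r t => Units.ext (LinearMap.ext fun v => by
      rw [MonoidHom.coe_toHomUnits, rho_apply, psi_x, rG_x, ← xR_map]; rfl)
  exact congrArg (fun f : G3 →* (End K3 (chevE8.Idx → K3))ˣ => (f g : End K3 (chevE8.Idx → K3))) this

theorem eig_rank {I K : Type*} [Fintype I] [DecidableEq I] [Field K] (M : Matrix I I K) (c : K) :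
    finrank K ((toEnd I K M).eigenspace c) + (M - Matrix.diagonal fun _ => c).rank = Fintype.card I := by
  have e : toEnd I K M - c • (1 : End K (I → K)) = (M - Matrix.diagonal fun _ => c).mulVecLin :=
    LinearMap.ext fun v => by
      rw [Matrix.mulVecLin_apply, Matrix.sub_mulVec, LinearMap.sub_apply, toEnd_apply]
      congr 1
      funext i
      simp [Matrix.mulVec_diagonal]
  rw [End.eigenspace_def, e, Matrix.rank, add_comm, LinearMap.finrank_range_add_finrank_ker, finrank_fintype_fun_eq_card]

theorem eig_map {I K L : Type*} [Fintype I] [DecidableEq I] [Field K] [Field L] (f : K →+* L) (M : Matrix I I K)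
    (c : K) : finrank L ((toEnd I L (M.map f)).eigenspace (f c)) = finrank K ((toEnd I K M).eigenspace c) := by
  have h1 := eig_rank M c
  have h2 := eig_rank (M.map f) (f c)
  have e : (M.map f - Matrix.diagonal fun _ => f c) = (M - Matrix.diagonal fun _ => c).map f := by
    rw [Matrix.map_sub _ (map_sub f), Matrix.diagonal_map f.map_zero]
  rw [e, Cfsg.Agent.S4443.rank_map] at h2
  omega

theorem eig (g : G3) (c : k3) :
    finrank k3 ((r3 g).eigenspace c) = finrank K3 ((rho g).eigenspace (algebraMap k3 K3 c)) := by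
  rw [rho_eq, eig_map]; rfl

theorem fx_eq (g : G3) : fx (r3 g) = finrank K3 ((rho g).eigenspace 1) := by
  rw [fx, eig, map_one]

theorem fx7 {g : G3} (hg : orderOf g = 7) : fx (r3 g) = 80 ∨ fx (r3 g) = 38 := by
  rw [fx_eq]; exact X7.dim hg

end CL.E87.LinkX
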