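/-
`E₈(3)`, `L₂(7)`: elements of order seven and four.
-/
import Cfsg.Agent.KSG.E87.LinkX

set_option autoImplicit false
set_option maxRecDepth 20000
set_option backward.isDefEq.respectTransparency false

namespace CL.E87.Dim7
open CL.E83 (K3 G3)

theorem dim7 {g : G3} (h7 : g ^ 7 = 1) (h1 : g ≠ 1) : 38 ≤ fx (r3 g) := by
  have := Fact.mk (by norm_num : Nat.Prime 7)
  rcases LinkX.fx7 (orderOf_eq_prime h7 h1) with h | h <;> omega

end CL.E87.Dim7
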