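/-
`E₈(3)`, `L₂(7)`: the invariant form over the prime field.
-/
import Cfsg.Agent.KSG.E87.Alg
import Cfsg.Agent.KSG.E81.Form

set_option autoImplicit false
set_option maxRecDepth 20000
set_option backward.isDefEq.respectTransparency false

namespace CL.E87.ExtB
open Module Function Finset CL.Chev CL.AltE Cfsg.Lie
open CL.E82 (R8)
open CL.E83 (K3 G3)

/-- coordinates -/
noncomputable def pr (i : chevE8.Idx) : VV →ₗ[k3] k3 := LinearMap.proj i

/-- the form -/
noncomputable def BB : VV →ₗ[k3] VV →ₗ[k3] k3 :=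
  ∑ r : R8, (pr (Sum.inr r)).smulRight (pr (Sum.inr (ng r))) + ∑ i : Fin 8, (pr (Sum.inl i)).smulRight
    (∑ j : Fin 8, (A (sm (D := chevE8) j) (sm i) : k3) • pr (Sum.inl j))

theorem pr_apply (i : chevE8.Idx) (v : VV) : pr i v = v i := rfl

theorem BB_eq (u v : VV) : algebraMap k3 K3 (BB u v) =
    E81.kap (fun i => algebraMap k3 K3 (u i)) (fun i => algebraMap k3 K3 (v i)) := by
  rw [E81.FormX.kap_apply]
  simp only [BB, E81.FormX.lamL_apply, LinearMap.add_apply, LinearMap.sum_apply, LinearMap.smulRight_apply,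
    LinearMap.smul_apply, pr_apply, smul_eq_mul, map_add, map_sum, map_mul, map_intCast]

theorem exists_form (hio : ∀ (g : G3) (v : VV), (fun i => algebraMap k3 K3 (r3 g v i)) =
      E81.rho g (fun i => algebraMap k3 K3 (v i))) :
    ∃ B : LinearMap.BilinForm k3 VV, (∀ x y, B x y = B y x) ∧ (∀ x, (∀ y, B x y = 0) → x = 0) ∧
      ∀ g x y, B (r3 g x) (r3 g y) = B x y := by
  have hi := (algebraMap k3 K3).injective
  refine ⟨BB, fun x y => hi ?_, fun x hx => ?_, fun g x y => hi ?_⟩
  · rw [BB_eq, BB_eq, E81.kap_symm]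
  · have h0 : E81.kap (fun i => algebraMap k3 K3 (x i)) = 0 := by
      refine (Pi.basisFun K3 chevE8.Idx).ext fun j => ?_
      have := BB_eq x (Pi.single j 1)
      rw [hx, map_zero] at this
      rw [Pi.basisFun_apply, LinearMap.zero_apply, this]
      congr 1
      funext i
      by_cases e : i = j
      · rw [e, Pi.single_eq_same, Pi.single_eq_same, map_one]
      · rw [Pi.single_eq_of_ne e, Pi.single_eq_of_ne e, map_zero]
    have := E81.kap_nd (u := fun i => algebraMap k3 K3 (x i)) fun v => by rw [h0]; rfl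
    exact funext fun i => hi ((congrFun this i).trans (map_zero _).symm)
  · rw [BB_eq, BB_eq, hio, hio, E81.kap_rho]

end CL.E87.ExtB
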