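/-
`E₈(3)`, `L₂(7)`: relations of the Hecke operator.
-/
import Cfsg.Agent.KSG.E87.Defs

set_option autoImplicit false

namespace CL.E87
open Module Function Finset
open scoped MatrixGroups

variable {W : Type} [AddCommGroup W] [Module k3 W]

variable (ρ : S7 →* End k3 W)

namespace HkP

theorem three (a : End k3 W) : a + a + a = 0 := by
  have : (3 : k3) • a = a + a + a := by
    rw [show (3 : k3) = 1 + 1 + 1 by norm_num, add_smul, add_smul, one_smul]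
  rw [← this, show (3 : k3) = 0 by decide, zero_smul]

theorem h3 : (3 : End k3 W) = 0 := by
  have := three (1 : End k3 W)
  rw [← this]; norm_num

theorem es7 : ρ es ^ 7 = 1 := by
  rw [← map_pow, show es ^ 7 = 1 by decide, map_one]

theorem eu3 : ρ eu ^ 3 = 1 := by
  rw [← map_pow, show eu ^ 3 = 1 by decide, map_one]

theorem e7_eq : e7 ρ = 1 + ρ es + ρ es ^ 2 + ρ es ^ 3 + ρ es ^ 4 + ρ es ^ 5 + ρ es ^ 6 := by
  simp [e7, sum_range_succ]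

theorem e7_es : e7 ρ * ρ es = e7 ρ := by
  have h := es7 ρ
  rw [e7_eq]
  have : (1 + ρ es + ρ es ^ 2 + ρ es ^ 3 + ρ es ^ 4 + ρ es ^ 5 + ρ es ^ 6) * ρ es =
      ρ es + ρ es ^ 2 + ρ es ^ 3 + ρ es ^ 4 + ρ es ^ 5 + ρ es ^ 6 + ρ es ^ 7 := by noncomm_ring
  rw [this, h]; abel

theorem es_e7 : ρ es * e7 ρ = e7 ρ := by
  have h := es7 ρ
  rw [e7_eq]
  have : ρ es * (1 + ρ es + ρ es ^ 2 + ρ es ^ 3 + ρ es ^ 4 + ρ es ^ 5 + ρ es ^ 6) =
      ρ es + ρ es ^ 2 + ρ es ^ 3 + ρ es ^ 4 + ρ es ^ 5 + ρ es ^ 6 + ρ es ^ 7 := by noncomm_ring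
  rw [this, h]; abel

theorem e7_pow (i : ℕ) : e7 ρ * ρ es ^ i = e7 ρ := by
  induction i with
  | zero => simp
  | succ n ih => rw [pow_succ, ← mul_assoc, ih, e7_es]

theorem pow_e7 (i : ℕ) : ρ es ^ i * e7 ρ = e7 ρ := by
  induction i with
  | zero => simp
  | succ n ih => rw [pow_succ, mul_assoc, es_e7, ih]

theorem e7_e7 : e7 ρ * e7 ρ = e7 ρ := by
  conv_lhs => rw [e7_eq ρ]; rhs; rw [← e7_eq ρ]
  simp only [add_mul, one_mul, pow_e7, es_e7]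
  have := three (e7 ρ)
  calc _ = e7 ρ + (e7 ρ + e7 ρ + e7 ρ) + (e7 ρ + e7 ρ + e7 ρ) := by abel
    _ = _ := by rw [this]; simp

theorem eu_pow (i : ℕ) : ρ eu * ρ es ^ i = ρ es ^ (4 * i) * ρ eu := by
  have h : ρ eu * ρ es = ρ es ^ 4 * ρ eu := by
    rw [← map_pow, ← map_mul, ← map_mul, show eu * es = es ^ 4 * eu by decide]
  induction i with
  | zero => simp
  | succ n ih => rw [pow_succ, ← mul_assoc, ih, mul_assoc, h, ← mul_assoc, ← pow_add]; rfl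

theorem es_mod (i : ℕ) : ρ es ^ i = ρ es ^ (i % 7) := by
  conv_lhs => rw [← Nat.div_add_mod i 7, pow_add, pow_mul, es7, one_pow, one_mul]

theorem eu_e7 : ρ eu * e7 ρ = e7 ρ * ρ eu := by
  rw [e7_eq]
  have h1 := eu_pow ρ 1
  rw [pow_one] at h1
  simp only [mul_add, add_mul, mul_one, one_mul, h1, eu_pow]
  rw [es_mod ρ (4 * 2), es_mod ρ (4 * 3), es_mod ρ (4 * 4), es_mod ρ (4 * 5), es_mod ρ (4 * 6)]
  norm_num
  abel

theorem ew_eu : ρ ew * ρ eu = ρ eu ^ 2 * ρ ew := by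
  rw [← map_pow, ← map_mul, ← map_mul, show ew * eu = eu ^ 2 * ew by decide]

theorem ew_eu2 : ρ ew * ρ eu ^ 2 = ρ eu * ρ ew := by
  rw [← map_pow, ← map_mul, ← map_mul, show ew * eu ^ 2 = eu * ew by decide]

theorem c_eu : Commute (ρ eu) (e7 ρ) := eu_e7 ρ

theorem NN_e7 : NN ρ * e7 ρ = e7 ρ * NN ρ :=
  (((Commute.one_left _).add_left (c_eu ρ)).add_left ((c_eu ρ).pow_left 2)).eq

theorem yy_e7 : yy ρ * e7 ρ = e7 ρ * yy ρ :=
  ((c_eu ρ).sub_left ((c_eu ρ).pow_left 2)).eq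

theorem ew_NN : ρ ew * NN ρ = NN ρ * ρ ew := by
  simp only [NN, mul_add, add_mul, mul_one, one_mul, ew_eu, ew_eu2]; abel

theorem ew_yy : ρ ew * yy ρ = -(yy ρ * ρ ew) := by
  simp only [yy, mul_sub, sub_mul, ew_eu, ew_eu2]; abel

theorem yy_yy : yy ρ * yy ρ = NN ρ := by
  have h := eu3 ρ
  have e : yy ρ * yy ρ = ρ eu ^ 2 - 2 * ρ eu ^ 3 + ρ eu ^ 3 * ρ eu := by unfold yy; noncomm_ring
  rw [e, h, NN]
  have := three (1 : End k3 W)
  calc _ = 1 + ρ eu + ρ eu ^ 2 - (1 + 1 + 1) := by noncomm_ring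
    _ = _ := by rw [this, sub_zero]

theorem eu_NN : ρ eu * NN ρ = NN ρ := by
  have h := eu3 ρ
  have e : ρ eu * NN ρ = ρ eu + ρ eu ^ 2 + ρ eu ^ 3 := by unfold NN; noncomm_ring
  rw [e, h, NN]; abel

theorem yy_NN : yy ρ * NN ρ = 0 := by
  rw [yy, sub_mul, sq, mul_assoc, eu_NN, eu_NN, sub_self]

theorem NN_yy : NN ρ * yy ρ = 0 := by
  rw [← yy_yy, mul_assoc, yy_yy, yy_NN]

theorem NN_NN : NN ρ * NN ρ = 0 := by
  conv_lhs => lhs; rw [← yy_yy]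
  rw [mul_assoc, yy_NN, mul_zero]

theorem e7_TT : e7 ρ * TT ρ = TT ρ := by
  rw [TT, ← mul_assoc, ← mul_assoc, e7_e7]

theorem TT_e7 : TT ρ * e7 ρ = TT ρ := by
  rw [TT, mul_assoc, e7_e7]

theorem TT_NN : TT ρ * NN ρ = NN ρ * TT ρ := by
  rw [TT, mul_assoc, ← NN_e7, ← mul_assoc, mul_assoc (e7 ρ), ew_NN, ← mul_assoc, ← NN_e7]
  simp only [mul_assoc]

theorem TT_yy : TT ρ * yy ρ = -(yy ρ * TT ρ) := by
  rw [TT, mul_assoc, ← yy_e7, ← mul_assoc, mul_assoc (e7 ρ), ew_yy, mul_neg, ← mul_assoc,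
    ← yy_e7]
  simp only [mul_assoc, neg_mul]

theorem bru (i a j : ℕ) (z : S7) (hz : ρ z = 1)
    (h : ew * es ^ i * ew = es ^ a * eu ^ j * z * ew * es ^ a) :
    e7 ρ * (ρ ew * ρ es ^ i * ρ ew) * e7 ρ = ρ eu ^ j * TT ρ := by
  have h1 := congrArg ρ h
  simp only [map_mul, map_pow, hz, mul_one] at h1
  rw [h1, TT]
  have := ((c_eu ρ).pow_left j).eq
  calc _ = (e7 ρ * ρ es ^ a) * ρ eu ^ j * ρ ew * (ρ es ^ a * e7 ρ) := by simp only [mul_assoc]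
    _ = _ := by rw [e7_pow, pow_e7, ← this]; simp only [mul_assoc]

theorem TT_TT (hn : ρ (-1) = 1) : TT ρ * TT ρ = e7 ρ - NN ρ * TT ρ := by
  have e : TT ρ * TT ρ = ∑ i ∈ range 7, e7 ρ * (ρ ew * ρ es ^ i * ρ ew) * e7 ρ := by
    have : TT ρ * TT ρ = e7 ρ * (ρ ew * (e7 ρ * e7 ρ) * ρ ew) * e7 ρ := by
      simp only [TT, mul_assoc]
    rw [this, e7_e7]
    conv_lhs => lhs; rhs; lhs; rhs; rw [e7]
    simp only [mul_sum, sum_mul]
  have h0 : e7 ρ * (ρ ew * ρ es ^ 0 * ρ ew) * e7 ρ = e7 ρ := by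
    rw [pow_zero, mul_one, ← map_mul, show ew * ew = -1 by decide, hn, mul_one, e7_e7]
  have h1 := bru ρ 1 6 0 1 (map_one _) (by decide)
  have h2 := bru ρ 2 3 2 1 (map_one _) (by decide)
  have h3 := bru ρ 3 2 1 (-1) hn (by decide)
  have h4 := bru ρ 4 5 1 1 (map_one _) (by decide)
  have h5 := bru ρ 5 4 2 (-1) hn (by decide)
  have h6 := bru ρ 6 1 0 (-1) hn (by decide)
  rw [e]
  simp only [sum_range_succ, sum_range_zero, zero_add, h0, h1, h2, h3, h4, h5, h6]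
  have t := three (NN ρ * TT ρ)
  calc _ = e7 ρ - NN ρ * TT ρ + (NN ρ * TT ρ + NN ρ * TT ρ + NN ρ * TT ρ) := by
        unfold NN; noncomm_ring
    _ = _ := by rw [t, add_zero]

theorem RR_RR (hn : ρ (-1) = 1) : RR ρ * RR ρ = e7 ρ := by
  have e : RR ρ * RR ρ = TT ρ * TT ρ - (TT ρ * NN ρ) * e7 ρ - NN ρ * (e7 ρ * TT ρ) +
      NN ρ * (e7 ρ * NN ρ) * e7 ρ := by unfold RR; noncomm_ring
  rw [e, TT_TT ρ hn, TT_NN, mul_assoc, TT_e7, e7_TT, ← NN_e7, ← mul_assoc, NN_NN]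
  have t := three (NN ρ * TT ρ)
  calc _ = e7 ρ - (NN ρ * TT ρ + NN ρ * TT ρ + NN ρ * TT ρ) := by noncomm_ring
    _ = _ := by rw [t, sub_zero]


theorem P1 : ∀ n < (7 : ℕ), ∀ j < (3 : ℕ), (es ^ n * eu ^ j).1 = !![2 ^ j, (Nat.cast n : ZMod 7) * 4 ^ j; 0, 4 ^ j] := by decide +kernel

theorem P2 : ∀ n < (7 : ℕ), ∀ j < (3 : ℕ), ∀ m < (7 : ℕ), (es ^ n * eu ^ j * ew * es ^ m).1 =
    !![(Nat.cast n : ZMod 7) * 4 ^ j, (Nat.cast n : ZMod 7) * (Nat.cast m : ZMod 7) * 4 ^ j - 2 ^ j; 4 ^ j, (Nat.cast m : ZMod 7) * 4 ^ j] := by decide +kernel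

set_option synthInstance.maxSize 4096 in
set_option synthInstance.maxHeartbeats 200000 in
theorem P3 : ∀ a b c d : ZMod 7, a * d - b * c = 1 → ∃ j < (3 : ℕ), ∃ n < (7 : ℕ), ∃ m < (7 : ℕ),
    (c = 0 ∧ d = 4 ^ j ∧ b = (Nat.cast n : ZMod 7) * 4 ^ j ∧ a = 2 ^ j) ∨
    (c = 0 ∧ d = -4 ^ j ∧ b = -((Nat.cast n : ZMod 7) * 4 ^ j) ∧ a = -2 ^ j) ∨
    (c = 4 ^ j ∧ a = (Nat.cast n : ZMod 7) * 4 ^ j ∧ d = (Nat.cast m : ZMod 7) * 4 ^ j ∧ b = (Nat.cast n : ZMod 7) * (Nat.cast m : ZMod 7) * 4 ^ j - 2 ^ j) ∨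
    (c = -4 ^ j ∧ a = -((Nat.cast n : ZMod 7) * 4 ^ j) ∧ d = -((Nat.cast m : ZMod 7) * 4 ^ j) ∧
      b = -((Nat.cast n : ZMod 7) * (Nat.cast m : ZMod 7) * 4 ^ j - 2 ^ j)) := by decide +kernel

theorem bruhat (g : S7) : ∃ a < 7, ∃ j < 3, ∃ b < 7, g = es ^ a * eu ^ j ∨ g = -(es ^ a * eu ^ j) ∨
    g = es ^ a * eu ^ j * ew * es ^ b ∨ g = -(es ^ a * eu ^ j * ew * es ^ b) := by
  have hd := g.2
  rw [Matrix.det_fin_two] at hd
  obtain ⟨j, hj, n, hn, m, hm, h⟩ := P3 _ _ _ _ hd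
  refine ⟨n, hn, j, hj, m, hm, ?_⟩
  have e := Matrix.eta_fin_two g.1
  rcases h with ⟨h1, h2, h3, h4⟩ | ⟨h1, h2, h3, h4⟩ | ⟨h1, h2, h3, h4⟩ | ⟨h1, h2, h3, h4⟩
  · refine Or.inl (Subtype.ext ?_)
    rw [P1 n hn j hj, e, h1, h2, h3, h4]
  · refine Or.inr (Or.inl (Subtype.ext ?_))
    rw [Matrix.SpecialLinearGroup.coe_neg, P1 n hn j hj, e, h1, h2, h3, h4]
    simp
  · refine Or.inr (Or.inr (Or.inl (Subtype.ext ?_)))
    rw [P2 n hn j hj m hm, e, h1, h2, h3, h4]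
  · refine Or.inr (Or.inr (Or.inr (Subtype.ext ?_)))
    rw [Matrix.SpecialLinearGroup.coe_neg, P2 n hn j hj m hm, e, h1, h2, h3, h4]
    simp

theorem pow_fix {a : End k3 W} {v : W} (h : a v = v) (n : ℕ) : (a ^ n) v = v := by
  induction n with
  | zero => rfl
  | succ n ih => rw [pow_succ, End.mul_apply, h, ih]

theorem three' (v : W) : v + v + v = 0 := by
  have := congrArg (fun f : End k3 W => f v) (three (1 : End k3 W))
  simpa using this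

theorem e7_of {v : W} (h : ρ es v = v) : e7 ρ v = v := by
  rw [e7_eq]
  simp only [LinearMap.add_apply, End.one_apply, h, pow_fix h]
  have := three' v
  calc _ = v + (v + v + v) + (v + v + v) := by abel
    _ = _ := by rw [this]; simp

theorem RR_e7 : RR ρ * e7 ρ = RR ρ := by
  rw [RR, sub_mul, TT_e7, mul_assoc, e7_e7]

theorem e7_RR : e7 ρ * RR ρ = RR ρ := by
  rw [RR, mul_sub, e7_TT, ← mul_assoc, ← NN_e7, mul_assoc, e7_e7]

theorem es_RR : ρ es * RR ρ = RR ρ := by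
  conv_lhs => rw [← e7_RR, ← mul_assoc, es_e7, e7_RR]

theorem ew_fix (h : ρ (-1) = 1) {v : W} (hs : ρ es v = v) (hu : ρ eu v = v) (hT : TT ρ v = v) : ρ ew v = v := by
  have hx : ρ eu (ρ ew v) = ρ ew v := by
    rw [← End.mul_apply, ← ew_eu2, End.mul_apply, pow_fix hu]
  have b : ∀ (i a j : ℕ) (z : S7), ρ z = 1 → ew * es ^ i * ew = es ^ a * eu ^ j * z * ew * es ^ a →
      ρ ew ((ρ es ^ i) (ρ ew v)) = (ρ es ^ a) (ρ ew v) := by
    intro i a j z hz e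
    have h1 := congrArg (fun g => ρ g v) e
    simp only [map_mul, map_pow, hz, mul_one, End.mul_apply, pow_fix hs, pow_fix hx] at h1
    exact h1
  have h0 : ρ ew (ρ ew v) = v := by
    rw [← End.mul_apply, ← map_mul, show ew * ew = -1 by decide, h, End.one_apply]
  have h1 := b 1 6 0 1 (map_one _) (by decide)
  have h2 := b 2 3 2 1 (map_one _) (by decide)
  have h3 := b 3 2 1 (-1) h (by decide)
  have h4 := b 4 5 1 1 (map_one _) (by decide)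
  have h5 := b 5 4 2 (-1) h (by decide)
  have h6 := b 6 1 0 (-1) h (by decide)
  rw [pow_one] at h1 h6
  have hT' : e7 ρ (ρ ew v) = v := by
    rw [TT, End.mul_apply, End.mul_apply, e7_of ρ hs] at hT; exact hT
  have hT2 := congrArg (ρ ew) hT'
  rw [e7_eq] at hT' hT2
  simp only [LinearMap.add_apply, End.one_apply, map_add, h0, h1, h2, h3, h4, h5, h6] at hT' hT2
  have e : ρ ew v + ρ ew v = v + v := by
    conv_lhs => lhs; rw [← hT2]
    conv_rhs => rhs; rw [← hT']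
    abel
  have t1 := three' v
  have t2 := three' (ρ ew v)
  rw [e] at t2
  exact add_left_cancel (t2.trans t1.symm)

end HkP

/-- Notation: s = ρ es, u = ρ eu, w = ρ ew, e = e7, N = NN, y = yy, T = TT, R = RR. `(3 : End k3 W) = 0`, so 7 = 1, 2 = -1.
Matrix identities in `S7` are proved by `Subtype.ext (by decide)` / `by decide`: es^7 = 1, eu^3 = 1, eu*es = es^4*eu,
ew*eu = eu^2*ew, ew*ew = -1. `s e = e` by shifting the sum (`simp [e7, sum_range_succ]`, s^7 = 1), e e = 7 e = e. -/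
theorem e7_e7 : e7 ρ * e7 ρ = e7 ρ := by
  exact HkP.e7_e7 ρ

theorem es_e7 : ρ es * e7 ρ = e7 ρ ∧ e7 ρ * ρ es = e7 ρ := by
  exact ⟨HkP.es_e7 ρ, HkP.e7_es ρ⟩

/-- u s^i = s^(4i) u and i ↦ 4 i permutes the residues mod 7 -/
theorem eu_e7 : ρ eu * e7 ρ = e7 ρ * ρ eu := by
  exact HkP.eu_e7 ρ

theorem e7_fix {v : W} : e7 ρ v = v ↔ ρ es v = v := by
  refine ⟨fun h => ?_, HkP.e7_of ρ⟩
  conv_lhs => rw [← h, ← End.mul_apply, HkP.es_e7, h]

/-- y² = u² - 2u³ + u⁴ = u² + 1 + u; y N = 0; y = u (1 - u) -/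
theorem yy_yy : yy ρ * yy ρ = NN ρ ∧ yy ρ * NN ρ = 0 ∧ NN ρ * yy ρ = 0 ∧ NN ρ * NN ρ = 0 := by
  exact ⟨HkP.yy_yy ρ, HkP.yy_NN ρ, HkP.NN_yy ρ, HkP.NN_NN ρ⟩

theorem yy_ker {v : W} : yy ρ v = 0 ↔ ρ eu v = v := by
  rw [yy, LinearMap.sub_apply, sub_eq_zero]
  refine ⟨fun h => ?_, fun h => by rw [HkP.pow_fix h, h]⟩
  have h1 := congrArg (fun x => (ρ eu ^ 2 : End k3 W) x) h
  beta_reduce at h1
  rw [← End.mul_apply, ← End.mul_apply, ← pow_succ, ← pow_add, show 2 + 2 = 3 + 1 from rfl, pow_succ _ 3,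
    HkP.eu3, one_mul] at h1
  exact h1.symm

theorem TT_eu : TT ρ * ρ eu = ρ eu ^ 2 * TT ρ ∧ TT ρ * ρ eu ^ 2 = ρ eu * TT ρ ∧ TT ρ * NN ρ = NN ρ * TT ρ ∧
    TT ρ * yy ρ = -(yy ρ * TT ρ) := by
  have c := (HkP.c_eu ρ).pow_left 2
  refine ⟨?_, ?_, HkP.TT_NN ρ, HkP.TT_yy ρ⟩
  · rw [TT, mul_assoc, ← HkP.eu_e7, ← mul_assoc, mul_assoc (e7 ρ), HkP.ew_eu, ← mul_assoc, ← c.eq]
    simp only [mul_assoc]
  · rw [TT, mul_assoc, ← c.eq, ← mul_assoc, mul_assoc (e7 ρ), HkP.ew_eu2, ← mul_assoc, ← HkP.eu_e7]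
    simp only [mul_assoc]

/-- T² = ∑_k e (w s^k w) e; k = 0 gives e; for k = 1..6: ew*es^k*ew = ± es^a * eu^j * ew * es^a with (a, j, sign) =
(6,0,+), (3,2,+), (2,1,-), (5,1,+), (4,2,-), (1,0,-), so the term is u^j T; total e + 2 N T = e - N T. -/
theorem TT_TT (h : ρ (-1) = 1) : TT ρ * TT ρ = e7 ρ - NN ρ * TT ρ := by
  exact HkP.TT_TT ρ h

/-- R² = T² - 2 N T + N² e = e - 3 N T = e; R e = R = e R; R y = T y = - y T = - y R -/
theorem RR_RR (h : ρ (-1) = 1) : RR ρ * RR ρ = e7 ρ ∧ RR ρ * e7 ρ = RR ρ ∧ e7 ρ * RR ρ = RR ρ ∧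
    RR ρ * yy ρ = -(yy ρ * RR ρ) := by
  refine ⟨HkP.RR_RR ρ h, HkP.RR_e7 ρ, HkP.e7_RR ρ, ?_⟩
  rw [RR, sub_mul, mul_sub, HkP.TT_yy, mul_assoc, ← HkP.yy_e7, ← mul_assoc, ← mul_assoc, HkP.NN_yy, HkP.yy_NN]
  simp

/-- the fixed space `U` of `s` is `range e`; it contains both eigenspaces of `R` (`R v = ± v → e v = R² v = v`) and `R² = 1`
on it: `CL.E83.finrank_split2` -/
theorem fx_es [FiniteDimensional k3 W] (h : ρ (-1) = 1) : fx (ρ es) = ap ρ + am ρ := by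
  have hs : ∀ v, ρ es (RR ρ v) = RR ρ v := fun v => by rw [← End.mul_apply, HkP.es_RR]
  have h1 := CL.E83.finrank_split2 (K := k3) (by decide) (U := (ρ es).eigenspace 1) (g := RR ρ)
    (fun v _ => by rw [End.mem_eigenspace_iff, one_smul, hs])
    (fun v hv => by
      rw [End.mem_eigenspace_iff, one_smul] at hv
      rw [← End.mul_apply, HkP.RR_RR ρ h, HkP.e7_of ρ hv])
  rw [inf_eq_right.2, inf_eq_right.2] at h1
  · exact h1
  · intro v hv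
    rw [End.mem_eigenspace_iff] at hv ⊢
    have := hs v
    rw [hv, map_smul, neg_smul, neg_smul, neg_inj, one_smul] at this
    exact this
  · intro v hv
    rw [End.mem_eigenspace_iff] at hv ⊢
    have := hs v
    rw [hv, map_smul, one_smul] at this
    exact this

/-- Let v₀ = v, v_k = s^k w v (k < 7), Σ = v + ∑ v_k = v + T v = 2 v. Each of s, w permutes the eight vectors (w v_0' = v;
w s^k w v = s^a u^j w s^a v = s^a w v as in `TT_TT`, u^j w v = w u^(-j) v = w v), so s Σ = Σ, w Σ = Σ, hence w v = v. And es, ew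
generate `S7` (every g is ± es^a eu^j or ± es^a eu^j ew es^b: `decide +kernel` over the entries, or
Bruhat by hand; u fixes v by hypothesis). -/
theorem fix_of (h : ρ (-1) = 1) {v : W} (hs : ρ es v = v) (hu : ρ eu v = v) (hT : TT ρ v = v) : v ∈ Fix ρ := by
  have hw := HkP.ew_fix ρ h hs hu hT
  rw [mem_Fix]
  intro g
  obtain ⟨a, -, j, -, b, -, e | e | e | e⟩ := HkP.bruhat g <;> rw [e] <;> (try rw [← neg_one_mul]) <;>
    simp only [map_mul, map_pow, h, one_mul, End.mul_apply, hw, HkP.pow_fix hs, HkP.pow_fix hu]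

/-- the Bruhat decomposition, for later use (prove it first, by `decide +kernel` on the four entries) -/
theorem bruhat (g : S7) : ∃ a < 7, ∃ j < 3, ∃ b < 7, g = es ^ a * eu ^ j ∨ g = -(es ^ a * eu ^ j) ∨
    g = es ^ a * eu ^ j * ew * es ^ b ∨ g = -(es ^ a * eu ^ j * ew * es ^ b) := by
  exact HkP.bruhat g

end CL.E87
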