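/-
`E₈(3)`, `L₂(7)`: modules without fixed vectors of the element of order seven.
-/
import Cfsg.Agent.KSG.E87.HkA
import Cfsg.Agent.KSG.E87.Four

set_option autoImplicit false

namespace CL.E87
open Module Function Finset
open scoped MatrixGroups

variable {W : Type} [AddCommGroup W] [Module k3 W]

variable [FiniteDimensional k3 W] (ρ : S7 →* End k3 W)

/-- Higman: e7 = 0 (its range is the fixed space of s). α = -(s + s³), ∑_{i<3} u^i α u^(-i) = -(s + … + s⁶) = 1 - e7 = 1.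
If u v = v then v = ∑ u^i α v. -/
theorem higman (h0 : fx (ρ es) = 0) {v : W} (hv : ρ eu v = v) : ∃ x, v = x + ρ eu x + ρ eu (ρ eu x) := by
  have he : e7 ρ v = 0 := by
    have h1 : (ρ es).eigenspace 1 = ⊥ := Submodule.finrank_eq_zero.1 h0
    have h2 : e7 ρ v ∈ (ρ es).eigenspace 1 := by
      rw [End.mem_eigenspace_iff, one_smul, ← End.mul_apply, (es_e7 ρ).1]
    rwa [h1, Submodule.mem_bot] at h2
  have key : ∀ k j : ℕ, eu * es ^ k = es ^ j * eu → ρ eu ((ρ es ^ k) v) = (ρ es ^ j) v := by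
    intro k j h
    rw [← End.mul_apply, ← map_pow, ← map_mul, h, map_mul, map_pow, End.mul_apply, hv]
  refine ⟨-((ρ es ^ 1) v + (ρ es ^ 3) v), ?_⟩
  simp only [map_neg, map_add]
  rw [key 1 4 (Subtype.ext (by decide)), key 3 5 (Subtype.ext (by decide)),
    key 4 2 (Subtype.ext (by decide)), key 5 6 (Subtype.ext (by decide))]
  simp only [e7, sum_range_succ, range_zero, sum_empty, zero_add, pow_zero, LinearMap.add_apply,
    End.one_apply] at he
  linear_combination (norm := module) he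

namespace Free

omit [FiniteDimensional k3 W] in
theorem neg (h : ρ (-1) = 1) (x : S7) : ρ (-x) = ρ x := by
  rw [← neg_one_mul, map_mul, h, one_mul]

omit [FiniteDimensional k3 W] in
theorem ap2 (h : ρ (-1) = 1) {a b c d : S7} (e : a * b = c * d ∨ a * b = -(c * d)) (v : W) :
    ρ a (ρ b v) = ρ c (ρ d v) := by
  rw [← End.mul_apply, ← End.mul_apply, ← map_mul, ← map_mul]
  rcases e with e | e
  · rw [e]
  · rw [e, neg ρ h]

theorem fxc (h : ρ (-1) = 1) (c : S7) {x : S7} (e : c * ew = x * c ∨ c * ew = -x * c) :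
    fx (ρ x) = fx (ρ ew) := by
  rw [← fx_conj ρ c ew]
  rcases e with e | e
  · rw [e, mul_inv_cancel_right]
  · rw [e, mul_inv_cancel_right, neg ρ h]

omit [FiniteDimensional k3 W] in
theorem me {a : End k3 W} {v : W} : v ∈ a.eigenspace 1 ↔ a v = v := by
  rw [End.mem_eigenspace_iff, one_smul]

/-- a conjugate of `eu` -/
def u' : S7 := ⟨!![2, 0; 6, 4], by decide⟩
/-- the conjugating element -/
def cc : S7 := ⟨!![1, 0; 4, 1], by decide⟩

end Free

open Free in
/-- Put w = ρ ew, g = ρ eg, b = ρ eb (eg² = ew, ew² = eb² = -1, ew eb = - eb ew, eb eg eb⁻¹ = eg⁻¹), f2 = fx w, E x =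
eigenspace 1 of x. The involutions b, w b, g b, w g b are conjugate to w up to sign: c ew c⁻¹ = - eb, ew*eb, eg*eb,
-(ew*eg*eb) for c = !![0,3;2,6], !![0,2;3,6], !![0,2;3,1], !![0,3;2,1] (`fx_conj`). `four` with U = ⊤ for (w, b) and (w, g b):
3 f2 = n + 2 m = n + 2 m', m = dim (E w ⊓ E b), m' = dim (E w ⊓ E (g b)). `four` with U = E w for (b, g b) [b g b = g⁻¹ = g on
U; E g ≤ E w]: m + m' + fx g = f2 + 2 d, d = dim (E w ⊓ E b ⊓ E (g b)). `s3` with U = E w ⊓ E b, τ = g b, u = ρ u',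
u' = !![2,0;6,4] = c eu c⁻¹ for c = !![1,0;4,1]; u' conjugates ew, eb, ew*eb to ew*eb, -ew, -eb, and (eg*eb) u' (eg*eb)⁻¹ =
u'⁻¹ = u'²; freeness on U: `higman` conjugated by c, then apply the projector p = 1 + w + b + w b (4 = 1), which commutes
with u' and is the identity on U with range in U. So 3 d ≤ 2 m, and omega. -/
theorem free (h : ρ (-1) = 1) (h0 : fx (ρ es) = 0) : 3 * fx (ρ eg) ≤ finrank k3 W := by
  have one : ∀ {a b : S7}, a * b = -1 → ∀ v, ρ a (ρ b v) = v := fun {a b} e v => by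
    rw [← End.mul_apply, ← map_mul, e, h, End.one_apply]
  have ww := one (a := ew) (b := ew) (Subtype.ext (by decide))
  have bb := one (a := eb) (b := eb) (Subtype.ext (by decide))
  have tt := one (a := eg * eb) (b := eg * eb) (Subtype.ext (by decide))
  have wb := ap2 ρ h (a := ew) (b := eb) (c := eb) (d := ew) (Or.inr (Subtype.ext (by decide)))
  have wt := ap2 ρ h (a := ew) (b := eg * eb) (c := eg * eb) (d := ew)
    (Or.inr (Subtype.ext (by decide)))
  have bt : ∀ v, ρ eb (ρ (eg * eb) v) = ρ eg (ρ ew v) :=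
    ap2 ρ h (Or.inl (Subtype.ext (by decide)))
  have tb : ∀ v, ρ (eg * eb) (ρ eb v) = ρ eg v := fun v => by
    rw [map_mul, End.mul_apply, bb]
  have gg : ∀ v, ρ eg (ρ eg v) = ρ ew v := fun v => by
    rw [← End.mul_apply, ← map_mul, show eg * eg = ew from Subtype.ext (by decide)]
  have f1 : fx (ρ eb) = fx (ρ ew) :=
    fxc ρ h ⟨!![0, 3; 2, 6], by decide⟩ (Or.inr (Subtype.ext (by decide)))
  have f2 : fx (ρ (ew * eb)) = fx (ρ ew) :=
    fxc ρ h ⟨!![0, 2; 3, 6], by decide⟩ (Or.inl (Subtype.ext (by decide)))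
  have f3 : fx (ρ (eg * eb)) = fx (ρ ew) :=
    fxc ρ h ⟨!![0, 2; 3, 1], by decide⟩ (Or.inl (Subtype.ext (by decide)))
  have f4 : fx (ρ (ew * (eg * eb))) = fx (ρ ew) :=
    fxc ρ h ⟨!![0, 3; 2, 1], by decide⟩ (Or.inr (Subtype.ext (by decide)))
  have A := four (U := (⊤ : Submodule k3 W)) (a := ρ ew) (b := ρ eb) (fun _ _ => trivial)
    (fun _ _ => trivial) (fun v _ => ww v) (fun v _ => bb v) (fun v _ => wb v)
  have B := four (U := (⊤ : Submodule k3 W)) (a := ρ ew) (b := ρ (eg * eb)) (fun _ _ => trivial)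
    (fun _ _ => trivial) (fun v _ => ww v) (fun v _ => tt v) (fun v _ => wt v)
  have C := four (U := (ρ ew).eigenspace 1) (a := ρ eb) (b := ρ (eg * eb))
    (fun v hv => me.2 (by rw [wb, me.1 hv])) (fun v hv => me.2 (by rw [wt, me.1 hv]))
    (fun v _ => bb v) (fun v _ => tt v) (fun v hv => by rw [bt, tb, me.1 hv])
  have e : (ρ ew).eigenspace 1 ⊓ (ρ eb * ρ (eg * eb)).eigenspace 1 = (ρ eg).eigenspace 1 := by
    ext v
    rw [Submodule.mem_inf, me, me, me, End.mul_apply, bt]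
    constructor
    · rintro ⟨h1, h2⟩
      rwa [h1] at h2
    · intro h1
      have h2 : ρ ew v = v := by rw [← gg, h1, h1]
      exact ⟨h2, by rw [h2, h1]⟩
  have ub : ∀ v, ρ u' (ρ eb v) = ρ ew (ρ u' v) := ap2 ρ h (Or.inr (Subtype.ext (by decide)))
  have uw : ∀ v, ρ u' (ρ ew v) = ρ ew (ρ eb (ρ u' v)) := fun v => by
    rw [ap2 ρ h (a := u') (b := ew) (c := ew * eb) (d := u') (Or.inl (Subtype.ext (by decide))),
      map_mul, End.mul_apply]
  have uwb : ∀ v, ρ u' (ρ ew (ρ eb v)) = ρ eb (ρ u' v) := fun v => by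
    rw [uw, ub, ← wb, ww]
  have D := s3 (U := (ρ ew).eigenspace 1 ⊓ (ρ eb).eigenspace 1) (u := ρ u') (τ := ρ (eg * eb))
    (fun v hv => ⟨me.2 (by rw [← ub, me.1 hv.2]), me.2 (by rw [← uwb, me.1 hv.2, me.1 hv.1])⟩)
    (fun v hv => ⟨me.2 (by rw [wt, me.1 hv.1]), me.2 (by
      rw [bt, me.1 hv.1, ← tb, me.1 hv.2])⟩)
    (fun v _ => by
      rw [← End.mul_apply, ← End.mul_apply, ← map_mul, ← map_mul,
        show u' * u' * u' = 1 from Subtype.ext (by decide), map_one, End.one_apply])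
    (fun v _ => tt v)
    (fun v _ => by
      rw [ap2 ρ h (a := eg * eb) (b := u') (c := u' * u') (d := eg * eb)
        (Or.inl (Subtype.ext (by decide))), map_mul, End.mul_apply])
    (fun v hv hu => by
      have uc : ∀ x, ρ u' (ρ cc x) = ρ cc (ρ eu x) := ap2 ρ h (Or.inl (Subtype.ext (by decide)))
      have ci : ∀ x, ρ cc (ρ cc⁻¹ x) = x := fun x => by
        rw [← End.mul_apply, ← map_mul, mul_inv_cancel, map_one, End.one_apply]
      have ic : ∀ x, ρ cc⁻¹ (ρ cc x) = x := fun x => by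
        rw [← End.mul_apply, ← map_mul, inv_mul_cancel, map_one, End.one_apply]
      obtain ⟨x, hx⟩ := higman ρ h0 (v := ρ cc⁻¹ v) (by
        rw [← ic (ρ eu _), ← uc, ci, hu])
      have hy : v = ρ cc x + ρ u' (ρ cc x) + ρ u' (ρ u' (ρ cc x)) := by
        rw [uc, uc, ← map_add, ← map_add, ← hx, ci]
      obtain ⟨P, hP⟩ : ∃ P : End k3 W, ∀ z, P z = z + ρ ew z + ρ eb z + ρ ew (ρ eb z) :=
        ⟨1 + ρ ew + ρ eb + ρ ew * ρ eb, fun z => rfl⟩
      have Pu : ∀ z, ρ u' (P z) = P (ρ u' z) := fun z => by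
        rw [hP, hP, map_add, map_add, map_add, uwb, uw, ub]
        abel
      refine ⟨P (ρ cc x), ⟨me.2 ?_, me.2 ?_⟩, ?_⟩
      · rw [hP, map_add, map_add, map_add, ww, ww]
        abel
      · rw [hP, map_add, map_add, map_add, bb, ← wb, ← wb, bb]
        abel
      · rw [Pu, Pu, ← map_add, ← map_add, ← hy, hP, me.1 hv.2, me.1 hv.1]
        have h3 : (3 : k3) • v = 0 := by rw [show (3 : k3) = 0 from rfl, zero_smul]
        have h4 : v + v + v = (3 : k3) • v := by module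
        rw [add_assoc, add_assoc, ← add_assoc v v v, h4, h3, add_zero])
  rw [top_inf_eq, top_inf_eq, top_inf_eq, finrank_top, ← map_mul] at A B
  rw [e] at C
  unfold fx at *
  omega

end CL.E87
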