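/-
`E₈(3)`, `L₂(7)`: the structure of the subgroup.
-/
import Cfsg.Agent.KSG.E87.Defs

set_option autoImplicit false

namespace CL.E87
open Module Function Finset
open scoped MatrixGroups

variable {W : Type} [AddCommGroup W] [Module k3 W]

variable {G : Type*} [Group G] {H : Subgroup G} {θ : S7 →* G}

namespace Grp2

/-- `M` is a matrix of `h` -/
def R (θ : S7 →* G) (h : G) (M : Matrix (Fin 2) (Fin 2) (ZMod 7)) : Prop :=
  M.det ≠ 0 ∧ ∀ g : S7, ∃ g' : S7, M * g.1 = g'.1 * M ∧ h * θ g * h⁻¹ = θ g'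

theorem nz : ∀ x y : ZMod 7, x ≠ 0 → y ≠ 0 → x * y ≠ 0 := by decide
theorem inv : ∀ x : ZMod 7, x ≠ 0 → ∃ y, y ≠ 0 ∧ y * x = 1 := by decide
theorem sq : ∀ x y : ZMod 7, x ≠ 0 → y ≠ 0 → (∃ c, c ≠ 0 ∧ c ^ 2 * x = 1) ∨ (∃ c, c ≠ 0 ∧ c ^ 2 * y = 1) ∨
    ∃ c, c ≠ 0 ∧ c ^ 2 * (x * y) = 1 := by decide

variable {h h' : G} {M M' : Matrix (Fin 2) (Fin 2) (ZMod 7)}

theorem det_smul (c : ZMod 7) : (c • M).det = c ^ 2 * M.det := by rw [Matrix.det_smul, Fintype.card_fin]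

theorem R.smul (r : R θ h M) {c : ZMod 7} (hc : c ≠ 0) : R θ h (c • M) :=
  ⟨by rw [det_smul, pow_two]; exact nz _ _ (nz _ _ hc hc) r.1, fun g => by
    obtain ⟨g', e1, e2⟩ := r.2 g
    exact ⟨g', by rw [Matrix.smul_mul, Matrix.mul_smul, e1], e2⟩⟩

theorem R.mul (r : R θ h M) (r' : R θ h' M') : R θ (h * h') (M * M') :=
  ⟨by rw [Matrix.det_mul]; exact nz _ _ r.1 r'.1, fun g => by
    obtain ⟨g', e1, e2⟩ := r'.2 g
    obtain ⟨g'', e3, e4⟩ := r.2 g'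
    exact ⟨g'', by rw [mul_assoc, e1, ← mul_assoc, e3, mul_assoc], by rw [← e4, ← e2]; group⟩⟩

theorem R.uniq (hθ : Emb H θ) (hh : h ∈ H) (hh' : h' ∈ H) (r : R θ h M) (r' : R θ h' M) : h = h' := by
  obtain ⟨y, -, hy⟩ := inv _ r.1
  have u : IsUnit M := (Matrix.isUnit_iff_isUnit_det M).2 (IsUnit.of_mul_eq_one_right y hy)
  have := hθ.cen (h'⁻¹ * h) (mul_mem (inv_mem hh') hh) fun g => by
    obtain ⟨a, e1, e2⟩ := r.2 g
    obtain ⟨b, e3, e4⟩ := r'.2 g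
    have : a = b := Subtype.ext (u.mul_right_cancel (e1.symm.trans e3))
    rw [this, ← e4] at e2
    show h'⁻¹ * h * θ g = θ g * (h'⁻¹ * h)
    calc h'⁻¹ * h * θ g = h'⁻¹ * (h * θ g * h⁻¹) * h := by group
      _ = _ := by rw [e2]; group
  exact (inv_mul_eq_one.1 this).symm

theorem R.range (hθ : Emb H θ) (hh : h ∈ H) (r : R θ h M) (e : ∃ c, c ≠ 0 ∧ c ^ 2 * M.det = 1) : h ∈ θ.range := by
  obtain ⟨c, hc, e⟩ := e
  let g : S7 := ⟨c • M, by rw [det_smul, e]⟩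
  refine ⟨g, R.uniq hθ (hθ.le g) hh (M := g.1) ⟨by rw [g.2]; decide, fun x => ⟨g * x * g⁻¹, ?_, by simp⟩⟩ (r.smul hc)⟩
  rw [← Matrix.SpecialLinearGroup.coe_mul, ← Matrix.SpecialLinearGroup.coe_mul, inv_mul_cancel_right]

theorem R.comm (hθ : Emb H θ) (r : R θ h M) {x : S7} (hx : h ∈ Subgroup.centralizer {θ x}) :
    M * x.1 = x.1 * M ∨ M * x.1 = -(x.1 * M) := by
  obtain ⟨g, e1, e2⟩ := r.2 x
  rw [Subgroup.mem_centralizer_singleton_iff.1 hx, mul_inv_cancel_right] at e2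
  rcases hθ.ker (g * x⁻¹) (by rw [map_mul, map_inv, ← e2, mul_inv_cancel]) with e | e
  · exact Or.inl (by rw [e1, mul_inv_eq_one.1 e])
  · exact Or.inr (by rw [e1, mul_inv_eq_iff_eq_mul.1 e]; simp)

/-- quadruples -/
abbrev Q4 := ZMod 7 × ZMod 7 × ZMod 7 × ZMod 7

/-- the matrix of a quadruple -/
def mk (t : Q4) : Matrix (Fin 2) (Fin 2) (ZMod 7) := !![t.1, t.2.1; t.2.2.1, t.2.2.2]

theorem norm (hθ : Emb H θ) (hh : h ∈ H) : ∃ t : Q4, (t.1 = 1 ∨ t.1 = 0 ∧ t.2.1 = 1) ∧ R θ h (mk t) := by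
  obtain ⟨M, r⟩ := hθ.gl h hh
  have r : R θ h M := r
  have key : ∀ y : ZMod 7, y ≠ 0 → R θ h (mk (y * M 0 0, y * M 0 1, y * M 1 0, y * M 1 1)) := fun y hy => by
    have := r.smul hy
    rwa [Matrix.eta_fin_two (y • M)] at this
  by_cases h0 : M 0 0 = 0
  · obtain ⟨y, hy, e⟩ := inv (M 0 1) fun h1 => r.1 (by rw [Matrix.det_fin_two, h0, h1]; simp)
    exact ⟨_, Or.inr ⟨by simp [h0], e⟩, key y hy⟩
  · obtain ⟨y, hy, e⟩ := inv _ h0
    exact ⟨_, Or.inl e, key y hy⟩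

theorem card_le (hθ : Emb H θ) {X : Subgroup G} (hX : X ≤ H) (T : Finset Q4)
    (hT : ∀ h ∈ X, ∀ t : Q4, (t.1 = 1 ∨ t.1 = 0 ∧ t.2.1 = 1) → R θ h (mk t) → t ∈ T) : Nat.card X ≤ T.card := by
  choose t t1 t2 using fun h : X => norm hθ (hX h.2)
  rw [← Nat.card_eq_finsetCard]
  exact Nat.card_le_card_of_injective (fun h : X => (⟨t h, hT h h.2 _ (t1 h) (t2 h)⟩ : T)) fun a b e =>
    Subtype.ext (R.uniq hθ (hX a.2) (hX b.2) (t2 a) (by rw [show t a = t b from congrArg Subtype.val e]; exact t2 b))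

/-- the conditions on a normalised matrix -/
def C (x : S7) (t : Q4) : Prop := (t.1 = 1 ∨ t.1 = 0 ∧ t.2.1 = 1) ∧ t.1 * t.2.2.2 - t.2.1 * t.2.2.1 ≠ 0 ∧
  (mk t * x.1 = x.1 * mk t ∨ mk t * x.1 = -(x.1 * mk t))

instance (x : S7) : DecidablePred (C x) := fun _ => by unfold C; infer_instance

theorem c_of (hθ : Emb H θ) {x : S7} (hx : h ∈ Subgroup.centralizer {θ x}) {t : Q4}
    (h1 : t.1 = 1 ∨ t.1 = 0 ∧ t.2.1 = 1) (r : R θ h (mk t)) : C x t :=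
  ⟨h1, by have := r.1; rwa [mk, Matrix.det_fin_two_of] at this, r.comm hθ hx⟩

theorem c16 : (univ.filter (C ew)).card ≤ 16 := by decide +kernel
theorem c4 : (univ.filter fun t => C ew t ∧ C eb t).card ≤ 4 := by decide +kernel

end Grp2

/-- If the matrix M of h (`Emb.gl`) has square determinant c², then M = c g₀ with g₀ ∈ S7, (θ g₀)⁻¹ h commutes with every
θ g, so h = θ g₀ (`cen`). The product of the matrices of h, h' is a matrix of h h', and the product of two nonsquares of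
`ZMod 7` is a square (`decide`). -/
theorem Emb.idx (hθ : Emb H θ) : ∀ h ∈ H, ∀ h' ∈ H, h ∈ θ.range ∨ h' ∈ θ.range ∨ h * h' ∈ θ.range := by
  intro h hh h' hh'
  obtain ⟨M, r⟩ := hθ.gl h hh
  obtain ⟨M', r'⟩ := hθ.gl h' hh'
  rcases Grp2.sq _ _ r.1 r'.1 with e | e | e
  · exact Or.inl (Grp2.R.range hθ hh r e)
  · exact Or.inr (Or.inl (Grp2.R.range hθ hh' r' e))
  · exact Or.inr (Or.inr (Grp2.R.range hθ (mul_mem hh hh') (Grp2.R.mul r r') (by rwa [Matrix.det_mul])))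

/-- h ∈ H commuting with θ x has M x = ± x M (`ker`). Normalise M by a scalar (±1, ±2, ±3 have squares 1, 4, 2) to det ∈
{1, -1}; M determines h (`cen`), and so does - M. The matrices with det = ± 1 and M ew = ± ew M are 32, i.e. 16 up to sign
(`decide +kernel` on the entries; e.g. inject into those whose first nonzero entry in the order 00, 01 lies in {1,2,3}). -/
theorem Emb.card2 [Finite G] (hθ : Emb H θ) : Nat.card ↥(H ⊓ Subgroup.centralizer {θ ew}) ≤ 16 := by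
  exact (Grp2.card_le hθ inf_le_left _ fun h hh t h1 r =>
    mem_filter.2 ⟨mem_univ _, Grp2.c_of hθ hh.2 h1 r⟩).trans Grp2.c16

/-- as `card2`: a matrix with det ≠ 0, M ew = ± ew M and M eb = ± eb M is a scalar multiple of 1, ew, eb or ew * eb
(`decide +kernel`), so h ∈ {1, θ ew, θ eb, θ (ew * eb)} by `cen` -/
theorem Emb.card4 [Finite G] (hθ : Emb H θ) :
    Nat.card ↥(H ⊓ (Subgroup.centralizer {θ ew} ⊓ Subgroup.centralizer {θ eb})) ≤ 4 := by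
  exact (Grp2.card_le hθ inf_le_left _ fun h hh t h1 r =>
    mem_filter.2 ⟨mem_univ _, Grp2.c_of hθ hh.2.1 h1 r, Grp2.c_of hθ hh.2.2 h1 r⟩).trans Grp2.c4

end CL.E87
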