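/-
`E₈(3)`, `L₂(7)`: fixed vectors from the Hecke operator.
-/
import Cfsg.Agent.KSG.E87.HkA

set_option autoImplicit false

namespace CL.E87
open Module Function Finset
open scoped MatrixGroups

variable {W : Type} [AddCommGroup W] [Module k3 W]

variable [FiniteDimensional k3 W] (ρ : S7 →* End k3 W)

namespace HkBX

theorem rk (U : Submodule k3 W) (y : End k3 W) :
    finrank k3 U = finrank k3 (U.map y) + finrank k3 ↥(U ⊓ LinearMap.ker y) := by
  rw [← LinearMap.finrank_range_add_finrank_ker (y.domRestrict U), LinearMap.range_domRestrict,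
    LinearMap.ker_domRestrict, ← Submodule.map_comap_subtype, Submodule.finrank_map_subtype_eq]

theorem abs {R y : End k3 W} (B : LinearMap.BilinForm k3 W) (hn : ∀ x, (∀ y, B x y = 0) → x = 0)
    (h3 : ∀ v, R (R (R v)) = R v) (hy : ∀ v, R (y v) = -y (R v)) (aR : ∀ x z, B (R x) z = B x (R z))
    (ay : ∀ x z, B (y x) z = -B x (y z)) (y3 : ∀ v, y (y (y v)) = 0) {F : Submodule k3 W}
    (hF : ∀ v, R v = v → y v = 0 → v ∈ F) :
    2 * finrank k3 (R.eigenspace 1) ≤ finrank k3 (R.eigenspace (-1)) + 3 * finrank k3 F := by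
  have mp : ∀ v, v ∈ R.eigenspace 1 ↔ R v = v := fun v => by simp
  have mm : ∀ v, v ∈ R.eigenspace (-1) ↔ R v = -v := fun v => by simp
  generalize R.eigenspace 1 = P, R.eigenspace (-1) = Q at mp mm
  have pq : P.map y ≤ Q := by
    rintro _ ⟨v, hv, rfl⟩
    rw [mm, hy, (mp v).1 hv]
  have a1 := rk P y
  have a2 := rk Q y
  have a3 := rk (P.map y) y
  have b1 : finrank k3 ↥(P ⊓ LinearMap.ker y) ≤ finrank k3 F :=
    Submodule.finrank_mono fun v hv => hF v ((mp v).1 hv.1) hv.2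
  have b2 : finrank k3 ((P.map y).map y) ≤ finrank k3 F := Submodule.finrank_mono (by
    rintro _ ⟨_, ⟨v, hv, rfl⟩, rfl⟩
    exact hF _ (by rw [hy, hy, (mp v).1 hv, map_neg, neg_neg]) (y3 v))
  have b3 : finrank k3 ↥(P.map y ⊓ LinearMap.ker y) ≤ finrank k3 ↥(Q ⊓ LinearMap.ker y) :=
    Submodule.finrank_mono (inf_le_inf_right _ pq)
  let φ : W →ₗ[k3] Dual k3 (Q.map y) := (Q.map y).dualRestrict ∘ₗ B
  have c1 := LinearMap.finrank_range_add_finrank_ker (φ.domRestrict P)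
  have c2 : finrank k3 (LinearMap.range (φ.domRestrict P)) ≤ finrank k3 (Q.map y) :=
    (Submodule.finrank_le _).trans (Subspace.dual_finrank_eq).le
  have c3 : finrank k3 (LinearMap.ker (φ.domRestrict P)) ≤ finrank k3 ↥(P ⊓ LinearMap.ker y) := by
    rw [LinearMap.ker_domRestrict, ← Submodule.finrank_map_subtype_eq, Submodule.map_comap_subtype]
    refine Submodule.finrank_mono fun x hx => ⟨hx.1, hn _ fun w => ?_⟩
    have v1 := (mm _).1 (pq ⟨x, hx.1, rfl⟩)
    have z : B x (y (R (R w) - R w)) = 0 := congrArg (fun f : Dual k3 (Q.map y) =>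
      f ⟨_, _, (mm (R (R w) - R w)).2 (by rw [map_sub, h3, neg_sub]), rfl⟩) hx.2
    rw [← neg_eq_zero, ← ay, map_sub, ← aR, ← aR, ← aR, v1, map_neg, v1, neg_neg, map_neg,
      LinearMap.neg_apply, sub_neg_eq_add, ← two_mul] at z
    exact (mul_eq_zero.1 z).resolve_left (by decide)
  omega

end HkBX

/-- U± = eigenspaces of R (inside range e), a± their dimensions, m = dim Fix. y maps U+ → U-, U- → U+ (`RR_RR`); r± = rank
of y on U±. (1) K = ker y ⊓ U+ ≤ Fix: u v = v (`yy_ker`), s v = v, N v = y y v = 0, T v = R v + N e v = v, `fix_of`. So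
a+ ≤ m + r+. (2) y (y U+) ≤ K since y³ = y N = 0, so dim y(y U+) ≤ m; and dim y U+ = r+ ≤ dim (ker y ⊓ U-) + dim y(y U+)
= (a- − r-) + m. (3) r+ ≤ r- (equality): adjoints for B: (ρ g)* = ρ g⁻¹, so e* = e, N* = N, w* = ρ(-ew) = w, T* = T, R* = R,
y* = -y. B is nondegenerate on U- (v ∈ U- orthogonal to U-: it is orthogonal to U+ (R* = R, 2 ≠ 0) and to ker e, and every
x is (x - e x) + (U+ part) + (U- part)). The map y U+ → Dual (U- / (ker y ⊓ U-)) [or → Dual (y U-) via x ↦ B x restricted: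
if x ∈ U+ is orthogonal to y U- then B (y x) z = - B x (y z) = 0 for z ∈ U-, so y x = 0]: the map U+ → Dual (y U-),
x ↦ B x | has kernel ≤ K, so a+ ≤ dim K + r-, i.e. r+ ≤ r-. Total: 2 r+ ≤ a- + m, 2 a+ ≤ 2 m + 2 r+. -/
theorem hkB (h : ρ (-1) = 1) (B : LinearMap.BilinForm k3 W) (hs : ∀ x y, B x y = B y x) (hn : ∀ x, (∀ y, B x y = 0) → x = 0)
    (hi : ∀ g x y, B (ρ g x) (ρ g y) = B x y) : 2 * ap ρ ≤ am ρ + 3 * finrank k3 (Fix ρ) := by
  have ap : ∀ {a b : End k3 W}, a = b → ∀ v, a v = b v := fun e v => by rw [e]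
  have adj : ∀ g g' : S7, g * g' = 1 ∨ g * g' = -1 → ∀ x z, B (ρ g x) z = B x (ρ g' z) := fun g g' e x z => by
    have : ρ g (ρ g' z) = z := by
      rw [← End.mul_apply, ← map_mul]
      rcases e with e | e <;> simp [e, h]
    rw [← hi g x, this]
  have u2 : ρ eu ^ 2 = ρ (eu ^ 2) := (map_pow _ _ _).symm
  have au := adj eu (eu ^ 2) (.inl (Subtype.ext (by decide)))
  have au2 := adj (eu ^ 2) eu (.inl (Subtype.ext (by decide)))
  have aw := adj ew ew (.inr (Subtype.ext (by decide)))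
  have e1 : ∀ x z, B (e7 ρ x) (e7 ρ z) = B (e7 ρ x) z := fun x z => by
    have s1 : ∀ z, B (e7 ρ x) (ρ es z) = B (e7 ρ x) z := fun z => by
      rw [← hi es (e7 ρ x) z, ← End.mul_apply, (es_e7 ρ).1]
    have s2 : ∀ i : ℕ, B (e7 ρ x) ((ρ es ^ i) z) = B (e7 ρ x) z := fun i => by
      induction i with
      | zero => rfl
      | succ i ih => rw [pow_succ', End.mul_apply, s1, ih]
    nth_rw 2 [e7]
    rw [LinearMap.sum_apply, map_sum, Finset.sum_congr rfl fun i _ => s2 i, Finset.sum_const, card_range,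
      nsmul_eq_mul, show ((7 : ℕ) : k3) = 1 by decide, one_mul]
  have ae : ∀ x z, B (e7 ρ x) z = B x (e7 ρ z) := fun x z => by rw [← e1, hs x, ← e1 z, hs]
  have eN : ∀ v, e7 ρ (NN ρ v) = NN ρ (e7 ρ v) := fun v => by
    have := ap (eu_e7 ρ)
    simp only [End.mul_apply] at this
    simp [NN, sq, this]
  obtain ⟨r1, r2, r3, r4⟩ := RR_RR ρ h
  refine HkBX.abs (y := yy ρ) B hn (fun v => ap ((mul_assoc _ _ _).symm.trans (r1 ▸ r3)) v)
    (fun v => ap r4 v) (fun x z => ?_) (fun x z => ?_) (fun v => ?_) fun v h1 h2 => ?_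
  · have aN : ∀ x z, B (NN ρ x) z = B x (NN ρ z) := fun x z => by
      simp only [NN, u2, LinearMap.add_apply, End.one_apply, map_add, au, au2]
      ring
    simp only [RR, TT, LinearMap.sub_apply, End.mul_apply, map_sub, ae, aw, aN, eN]
  · simp only [yy, u2, LinearMap.sub_apply, map_sub, au, au2]
    ring
  · rw [← End.mul_apply (yy ρ) (yy ρ) v, (yy_yy ρ).1]
    exact ap (yy_yy ρ).2.1 v
  · have ev : e7 ρ v = v := by rw [← r1, End.mul_apply, h1, h1]
    refine fix_of ρ h ((e7_fix ρ).1 ev) ((yy_ker ρ).1 h2) ?_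
    rw [RR, LinearMap.sub_apply, End.mul_apply, ev, ← (yy_yy ρ).1, End.mul_apply, h2, map_zero, sub_zero] at h1
    exact h1

end CL.E87
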