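/-
`E₈(3)`, `L₂(7)`: simple modules.
-/
import Cfsg.Agent.KSG.E87.HkA
import Cfsg.Agent.KSG.E87.Four

set_option autoImplicit false

namespace CL.E87
open Module Function Finset
open scoped MatrixGroups

variable {W : Type} [AddCommGroup W] [Module k3 W]

variable [FiniteDimensional k3 W] (ρ : S7 →* End k3 W)

namespace SimpX

omit [FiniteDimensional k3 W] in
theorem three (x : W) : x + x + x = 0 := by
  have h3 : (3 : k3) = 0 := by decide
  have : x + x + x = (3 : k3) • x := by
    rw [show (3 : k3) = 1 + 1 + 1 by norm_num, add_smul, add_smul, one_smul]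
  rw [this, h3, zero_smul]

omit [FiniteDimensional k3 W] in
theorem neg_eq {x : W} (h : x = -x) : x = 0 := by
  have h1 := three x
  have h2 : x + x = 0 := by
    nth_rewrite 2 [h]
    exact add_neg_cancel x
  rwa [h2, zero_add] at h1

omit [FiniteDimensional k3 W] in
theorem NN_fix {v : W} (hu : ρ eu v = v) : NN ρ v = 0 := by
  simp only [NN, pow_two, LinearMap.add_apply, Module.End.one_apply, Module.End.mul_apply, hu]
  exact three v

omit [FiniteDimensional k3 W] in
theorem neg_ap (h : ρ (-1) = 1) (g : S7) : ρ (-g) = ρ g := by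
  rw [show -g = -1 * g by simp, map_mul, h, one_mul]

omit [FiniteDimensional k3 W] in
theorem pow_fix {a : End k3 W} {v : W} (h : a v = v) (k : ℕ) : (a ^ k) v = v := by
  induction k with
  | zero => simp
  | succ k ih => rw [pow_succ, Module.End.mul_apply, h, ih]

omit [FiniteDimensional k3 W] in
theorem bor {v : W} (hs : ρ es v = v) (hu : ρ eu v = v) (g : S7) (x y : ℕ) : ρ (g * (es ^ x * eu ^ y)) v = ρ g v := by
  rw [map_mul, map_mul, map_pow, map_pow, Module.End.mul_apply, Module.End.mul_apply, pow_fix hu, pow_fix hs]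

omit [FiniteDimensional k3 W] in
theorem orb (h : ρ (-1) = 1) {v : W} (hs : ρ es v = v) (hu : ρ eu v = v) (g : S7) :
    ρ g v = v ∨ ∃ a < 7, ρ g v = ρ (es ^ a * ew) v := by
  obtain ⟨a, ha, j, hj, b, -, hg⟩ := bruhat g
  have e1 : ρ (es ^ a * eu ^ j) v = v := by simpa using bor ρ hs hu 1 a j
  have e0 : eu ^ j * ew = ew * eu ^ (2 * j) := by
    interval_cases j <;> exact Subtype.ext (by decide)
  have e2 : ρ (es ^ a * eu ^ j * ew * es ^ b) v = ρ (es ^ a * ew) v := by
    have : es ^ a * eu ^ j * ew * es ^ b = es ^ a * ew * (es ^ 0 * eu ^ (2 * j)) * (es ^ b * eu ^ 0) := by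
      rw [mul_assoc (es ^ a) (eu ^ j), e0]; simp [mul_assoc]
    rw [this, bor ρ hs hu, bor ρ hs hu]
  rcases hg with rfl | rfl | rfl | rfl
  · exact Or.inl e1
  · rw [neg_ap ρ h]; exact Or.inl e1
  · exact Or.inr ⟨a, ha, e2⟩
  · rw [neg_ap ρ h]; exact Or.inr ⟨a, ha, e2⟩

theorem fx_le {a : End k3 W} {o : W} (h : ∀ x, a x = x → x ∈ Submodule.span k3 {o}) : fx a ≤ 1 := by
  have h1 : a.eigenspace 1 ≤ Submodule.span k3 {o} := fun x hx => h x (by simpa using hx)
  refine (Submodule.finrank_mono h1).trans ?_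
  simpa using finrank_span_le_card (R := k3) ({o} : Set W)

theorem one_le {a : End k3 W} {c : k3} {v : W} (v0 : v ≠ 0) (h : a v = c • v) : 1 ≤ finrank k3 (a.eigenspace c) := by
  have h1 : Submodule.span k3 {v} ≤ a.eigenspace c := by
    rw [Submodule.span_singleton_le_iff_mem]; simpa using h
  have := Submodule.finrank_mono h1
  rwa [finrank_span_singleton v0] at this

end SimpX

/-- U = fixed space of s ≠ 0. y preserves U and y³ = 0, so K = U ⊓ ker y ≠ 0; T preserves K, T² = e - N T = 1 on K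
(N = y²), so there is v ≠ 0 with s v = v, u v = v, T v = v or T v = - v (take x + T x or x). -/
theorem exists_vec (h : ρ (-1) = 1) (h0 : fx (ρ es) ≠ 0) :
    ∃ v ≠ 0, ρ es v = v ∧ ρ eu v = v ∧ (TT ρ v = v ∨ TT ρ v = -v) := by
  have hx : ∃ x ≠ 0, e7 ρ x = x := by
    by_contra hc
    push Not at hc
    apply h0
    have : (ρ es).eigenspace 1 = ⊥ := by
      rw [eq_bot_iff]
      intro x hx
      by_contra x0
      exact hc x x0 ((e7_fix ρ).2 (by simpa using hx))
    rw [fx, this, finrank_bot]
  obtain ⟨x, x0, hx⟩ := hx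
  have ey : ∀ z, e7 ρ z = z → e7 ρ (yy ρ z) = yy ρ z := by
    intro z hz
    have e1 : ∀ z, e7 ρ z = z → e7 ρ (ρ eu z) = ρ eu z := by
      intro z hz
      rw [← Module.End.mul_apply, ← eu_e7, Module.End.mul_apply, hz]
    simp only [yy, pow_two, LinearMap.sub_apply, Module.End.mul_apply, map_sub]
    rw [e1 z hz, e1 _ (e1 z hz)]
  have hz : ∃ z ≠ 0, e7 ρ z = z ∧ yy ρ z = 0 := by
    by_cases h1 : yy ρ x = 0
    · exact ⟨x, x0, hx, h1⟩
    by_cases h2 : yy ρ (yy ρ x) = 0
    · exact ⟨_, h1, ey x hx, h2⟩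
    refine ⟨_, h2, ey _ (ey x hx), ?_⟩
    have : yy ρ * (yy ρ * yy ρ) = 0 := by rw [(yy_yy ρ).1, (yy_yy ρ).2.1]
    simpa using congrArg (fun f : End k3 W => f x) this
  obtain ⟨z, z0, hz, hy⟩ := hz
  have hu := (yy_ker ρ).1 hy
  have eT : e7 ρ (TT ρ z) = TT ρ z := by
    rw [← Module.End.mul_apply, TT, ← mul_assoc, ← mul_assoc, e7_e7]
  have uT : ρ eu (TT ρ z) = TT ρ z := by
    rw [← Module.End.mul_apply, ← (TT_eu ρ).2.1, Module.End.mul_apply, SimpX.pow_fix hu]
  have TT2 : TT ρ (TT ρ z) = z := by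
    rw [← Module.End.mul_apply, TT_TT ρ h, LinearMap.sub_apply, Module.End.mul_apply, SimpX.NN_fix ρ uT, hz, sub_zero]
  by_cases hv : z + TT ρ z = 0
  · exact ⟨z, z0, (e7_fix ρ).1 hz, hu, Or.inr (eq_neg_of_add_eq_zero_right hv)⟩
  · refine ⟨_, hv, (e7_fix ρ).1 (by rw [map_add, hz, eT]), by rw [map_add, hu, uT], Or.inl ?_⟩
    rw [map_add, TT2, add_comm]

/-- Case T v = v: v ∈ Fix (`fix_of`), W = span v, n = 1, fx ≤ 1, R v = T v - N v = v (N v = 3 v = 0), so a+ = 1, a- = 0.
Case T v = - v: v_k = s^k w v (k < 7), v + ∑ v_k = 0; S7 permutes the eight vectors (`bruhat`, or: s and w do, see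
`fix_of`), so they span W. e v = v, e v_k = T v = - v: the fixed space of s is span v, R v = - v, so a+ = 0, a- ≤ 1,
fx s = 1, n ≡ 1 mod 6 (`six`); n ≠ 1 since otherwise w v = c v with c = ± 1... (n = 1: s = 1 on W, ew is a product of
conjugates of es [ew = es⁻¹ * l * es⁻¹, l = !![1,0;1,1] = ew es⁻¹ ew⁻¹], so w = 1 and T v = v ≠ - v). So n ≥ 7.
fx g ≤ 1: g = ρ eg, g⁴ = 1, p = 1 + g + g² + g³ fixes every g-fixed vector (4 = 1), eg permutes the eight vectors in two
4-cycles with sums O, O', O + O' = 0, so range p ≤ span O. Then 3 + 4 ≤ 7. -/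
theorem simp_case (h : ρ (-1) = 1) (hs : ∀ U, Inv ρ U → U = ⊥ ∨ U = ⊤) (h0 : fx (ρ es) ≠ 0) :
    3 * fx (ρ eg) + 4 * am ρ ≤ finrank k3 W + 2 * ap ρ := by
  obtain ⟨v, v0, hsv, huv, hT⟩ := exists_vec ρ h h0
  have ev : e7 ρ v = v := (e7_fix ρ).2 hsv
  have hR : RR ρ v = TT ρ v := by
    rw [RR, LinearMap.sub_apply, Module.End.mul_apply, ev, SimpX.NN_fix ρ huv, sub_zero]
  have hfx := fx_es ρ h
  have htop : Submodule.span k3 (Set.range fun g => ρ g v) = ⊤ := by
    refine (hs _ ?_).resolve_left ?_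
    · intro g x hx
      induction hx using Submodule.span_induction with
      | mem x hx =>
        obtain ⟨g', rfl⟩ := hx
        exact Submodule.subset_span ⟨g * g', by simp⟩
      | zero => simp
      | add x y _ _ hx hy => rw [map_add]; exact add_mem hx hy
      | smul c x _ hx => rw [map_smul]; exact Submodule.smul_mem _ _ hx
    · intro hb
      apply v0
      have : v ∈ Submodule.span k3 (Set.range fun g => ρ g v) := Submodule.subset_span ⟨1, by simp⟩
      rwa [hb] at this
  have rng : ∀ (p : End k3 W) (o : W), (∀ g, p (ρ g v) ∈ Submodule.span k3 {o}) → ∀ x, p x ∈ Submodule.span k3 {o} := by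
    intro p o hp x
    have hx : x ∈ Submodule.span k3 (Set.range fun g => ρ g v) := htop ▸ Submodule.mem_top
    induction hx using Submodule.span_induction with
    | mem x hx => obtain ⟨g, rfl⟩ := hx; exact hp g
    | zero => simp
    | add x y _ _ hx hy => rw [map_add]; exact add_mem hx hy
    | smul c x _ hx => rw [map_smul]; exact Submodule.smul_mem _ _ hx
  have vm : v ∈ Submodule.span k3 {v} := Submodule.mem_span_singleton_self v
  have n1 : 1 ≤ finrank k3 W := by
    have := Submodule.finrank_le (Submodule.span k3 {v})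
    rwa [finrank_span_singleton v0] at this
  rcases hT with hT | hT
  · have hF := (mem_Fix ρ).1 (fix_of ρ h hsv huv hT)
    have all : ∀ x, x ∈ Submodule.span k3 {v} := rng 1 v fun g => by simpa [hF g] using vm
    have h1 : fx (ρ eg) ≤ 1 := SimpX.fx_le fun x _ => all x
    have h2 : fx (ρ es) ≤ 1 := SimpX.fx_le fun x _ => all x
    have h3 : 1 ≤ ap ρ := SimpX.one_le v0 (by rw [hR, hT, one_smul])
    omega
  · have eTk : ∀ a, e7 ρ (ρ (es ^ a * ew) v) = -v := by
      intro a
      have e1 : e7 ρ * ρ es ^ a = e7 ρ := by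
        induction a with
        | zero => simp
        | succ a ih => rw [pow_succ, ← mul_assoc, ih, (es_e7 ρ).2]
      rw [map_mul, map_pow, ← Module.End.mul_apply, ← mul_assoc, e1, ← hT, TT, Module.End.mul_apply,
        Module.End.mul_apply, Module.End.mul_apply, ev]
    have h2 : fx (ρ es) ≤ 1 := by
      refine SimpX.fx_le (o := v) fun x hx => ?_
      rw [← (e7_fix ρ).2 hx]
      refine rng _ v (fun g => ?_) x
      rcases SimpX.orb ρ h hsv huv g with e | ⟨a, -, e⟩
      · rw [e, ev]; exact vm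
      · rw [e, eTk]; exact neg_mem vm
    have h7 : ρ es ^ 7 = 1 := by
      rw [← map_pow, show es ^ 7 = 1 from Subtype.ext (by decide), map_one]
    have h6 := six h7
    have n7 : finrank k3 W ≠ 1 := by
      intro n1
      have all : Submodule.span k3 {v} = ⊤ :=
        Submodule.eq_top_of_finrank_eq (by rw [finrank_span_singleton v0, n1])
      have s1 : ρ es = 1 := by
        ext x
        have hx : x ∈ Submodule.span k3 {v} := all ▸ Submodule.mem_top
        obtain ⟨c, rfl⟩ := Submodule.mem_span_singleton.1 hx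
        simp [hsv]
      have hw : ρ ew v = -v := by
        have := eTk 0
        rwa [(e7_fix ρ).2 (by rw [s1]; rfl), pow_zero, one_mul] at this
      have h3 : ρ ew * ρ ew * ρ ew = 1 := by
        have : ρ (ew * es * (ew * es) * (ew * es)) = 1 := by
          rw [show ew * es * (ew * es) * (ew * es) = -1 from Subtype.ext (by decide), h]
        simpa [s1] using this
      apply v0
      apply SimpX.neg_eq
      have := congrArg (fun f : End k3 W => f v) h3
      simpa [hw] using this.symm
    have hsum : ∑ a ∈ range 7, ρ (es ^ a * ew) v = -v := by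
      rw [← hT, TT, Module.End.mul_apply, Module.End.mul_apply, ev, e7, LinearMap.sum_apply]
      exact sum_congr rfl fun a _ => by rw [map_mul, map_pow, Module.End.mul_apply]
    have key : ∀ r r' : S7, ∀ x y : ℕ, (eg * r = r' * (es ^ x * eu ^ y) ∨ eg * r = -(r' * (es ^ x * eu ^ y))) →
        ρ eg (ρ r v) = ρ r' v := by
      intro r r' x y e
      rw [← Module.End.mul_apply, ← map_mul]
      rcases e with e | e
      · rw [e, SimpX.bor ρ hsv huv]
      · rw [e, SimpX.neg_ap ρ h, SimpX.bor ρ hsv huv]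
    have gi : ρ eg v = ρ (es ^ 1 * ew) v := by
      simpa only [map_one, Module.End.one_apply] using key 1 (es ^ 1 * ew) 4 1 (Or.inl (Subtype.ext (by decide)))
    have g0 := key (es ^ 0 * ew) (es ^ 6 * ew) 3 1 (Or.inl (Subtype.ext (by decide)))
    have g1 := key (es ^ 1 * ew) (es ^ 0 * ew) 6 2 (Or.inl (Subtype.ext (by decide)))
    have g2 := key (es ^ 2 * ew) (es ^ 5 * ew) 2 0 (Or.inr (Subtype.ext (by decide)))
    have g3 := key (es ^ 3 * ew) (es ^ 4 * ew) 5 0 (Or.inl (Subtype.ext (by decide)))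
    have g4 := key (es ^ 4 * ew) (es ^ 2 * ew) 1 2 (Or.inr (Subtype.ext (by decide)))
    have g5 := key (es ^ 5 * ew) (es ^ 3 * ew) 4 1 (Or.inr (Subtype.ext (by decide)))
    have g6 : ρ eg (ρ (es ^ 6 * ew) v) = v := by
      simpa only [map_one, Module.End.one_apply] using key (es ^ 6 * ew) 1 1 2 (Or.inr (Subtype.ext (by decide)))
    simp only [sum_range_succ, sum_range_zero, zero_add] at hsum
    have horb := SimpX.orb ρ h hsv huv
    have hcase : ∀ g, ρ g v = v ∨ ρ g v = ρ (es ^ 0 * ew) v ∨ ρ g v = ρ (es ^ 1 * ew) v ∨ ρ g v = ρ (es ^ 2 * ew) v ∨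
        ρ g v = ρ (es ^ 3 * ew) v ∨ ρ g v = ρ (es ^ 4 * ew) v ∨ ρ g v = ρ (es ^ 5 * ew) v ∨
        ρ g v = ρ (es ^ 6 * ew) v := by
      intro g
      rcases horb g with e | ⟨a, ha, e⟩
      · exact Or.inl e
      · interval_cases a <;> simp only [e, true_or, or_true]
    generalize ρ (es ^ 0 * ew) v = v0' at *
    generalize ρ (es ^ 1 * ew) v = v1 at *
    generalize ρ (es ^ 2 * ew) v = v2 at *
    generalize ρ (es ^ 3 * ew) v = v3 at *
    generalize ρ (es ^ 4 * ew) v = v4 at *
    generalize ρ (es ^ 5 * ew) v = v5 at *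
    generalize ρ (es ^ 6 * ew) v = v6 at *
    have h1 : fx (ρ eg) ≤ 1 := by
      refine SimpX.fx_le (o := v + v1 + v0' + v6) fun x hx => ?_
      have hp : (1 + ρ eg + ρ eg * ρ eg + ρ eg * ρ eg * ρ eg) x = x := by
        simp only [LinearMap.add_apply, Module.End.one_apply, Module.End.mul_apply, hx]
        rw [SimpX.three x, zero_add]
      rw [← hp]
      refine rng _ _ (fun g => ?_) x
      have om : v + v1 + v0' + v6 ∈ Submodule.span k3 {v + v1 + v0' + v6} := Submodule.mem_span_singleton_self _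
      have o2 : v2 + v5 + v3 + v4 = -(v + v1 + v0' + v6) := by
        rw [neg_add, neg_add, neg_add, ← hsum]; abel
      have om2 := neg_mem om
      rw [← o2] at om2
      simp only [LinearMap.add_apply, Module.End.one_apply, Module.End.mul_apply]
      rcases hcase g with e | e | e | e | e | e | e | e <;> simp only [e, gi, g0, g1, g2, g3, g4, g5, g6]
      · exact om
      · convert om using 1; abel
      · convert om using 1; abel
      · exact om2
      · convert om2 using 1; abel
      · convert om2 using 1; abel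
      · convert om2 using 1; abel
      · convert om using 1; abel
    omega

end CL.E87
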