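/-
`E₈(3)`, `L₂(7)`: the module inequality.
-/
import Cfsg.Agent.KSG.E87.HkB
import Cfsg.Agent.KSG.E87.Free
import Cfsg.Agent.KSG.E87.Simp

set_option autoImplicit false

namespace CL.E87
open Module Function Finset
open scoped MatrixGroups

variable {W : Type} [AddCommGroup W] [Module k3 W]

/-- eigenspaces of an operator with a³ = a (or a⁴ = 1) are additive on short exact sequences: the general form. p = the
idempotent with range the eigenspace; for an idempotent p preserving U: range p ⊓ U = range (p|U), and the image of range p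
in W/U is range (p/U). -/
theorem idem_add [FiniteDimensional k3 W] {p : End k3 W} (hp : p * p = p) {U : Submodule k3 W} (hU : ∀ v ∈ U, p v ∈ U) :
    fx p = fx (p.restrict hU) + fx (U.mapQ U p hU : End k3 (W ⧸ U)) := by
  have hpp : ∀ v, p (p v) = p v := fun v => by rw [← End.mul_apply, hp]
  have key := (U.mkQ.comp (p.eigenspace 1).subtype).finrank_range_add_finrank_ker
  have hr : LinearMap.range (U.mkQ.comp (p.eigenspace 1).subtype) =
      End.eigenspace (U.mapQ U p hU : End k3 (W ⧸ U)) 1 := by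
    ext x
    rw [End.mem_eigenspace_iff, one_smul, LinearMap.mem_range]
    constructor
    · rintro ⟨⟨v, hv⟩, rfl⟩
      rw [End.mem_eigenspace_iff, one_smul] at hv
      simp [hv]
    · intro hx
      obtain ⟨v, rfl⟩ := U.mkQ_surjective x
      refine ⟨⟨p v, ?_⟩, ?_⟩
      · rw [End.mem_eigenspace_iff, one_smul, hpp]
      · simpa using hx
  have hk : finrank k3 (LinearMap.ker (U.mkQ.comp (p.eigenspace 1).subtype)) =
      finrank k3 (End.eigenspace (p.restrict hU) 1) := by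
    have e : (LinearMap.ker (U.mkQ.comp (p.eigenspace 1).subtype)).map (p.eigenspace 1).subtype =
        (End.eigenspace (p.restrict hU) 1).map U.subtype := by
      ext x
      simp only [Submodule.mem_map, LinearMap.mem_ker, LinearMap.comp_apply, Submodule.subtype_apply,
        Submodule.mkQ_apply, Submodule.Quotient.mk_eq_zero]
      constructor
      · rintro ⟨⟨v, hv⟩, h, rfl⟩
        refine ⟨⟨v, h⟩, ?_, rfl⟩
        rw [End.mem_eigenspace_iff, one_smul] at hv ⊢
        exact Subtype.ext hv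
      · rintro ⟨⟨v, hv⟩, h, rfl⟩
        refine ⟨⟨v, ?_⟩, hv, rfl⟩
        rw [End.mem_eigenspace_iff, one_smul] at h ⊢
        exact congrArg Subtype.val h
    rw [← Submodule.finrank_map_subtype_eq, ← Submodule.finrank_map_subtype_eq U, e]
  rw [hr, hk] at key
  unfold fx
  omega

namespace Ind

theorem three (v : W) : v + v + v = 0 := by
  have h : v + v + v = (3 : k3) • v := by module
  rw [h, show (3 : k3) = 0 by decide, zero_smul]

variable {W' : Type} [AddCommGroup W'] [Module k3 W']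

/-- `φ` intertwines `a` and `b` -/
def Tw (φ : W →ₗ[k3] W') (a : End k3 W) (b : End k3 W') : Prop := ∀ v, φ (a v) = b (φ v)

variable {φ : W →ₗ[k3] W'} {a a' : End k3 W} {b b' : End k3 W'}

theorem Tw.one : Tw φ 1 1 := fun _ => rfl
theorem Tw.mul (h : Tw φ a b) (h' : Tw φ a' b') : Tw φ (a * a') (b * b') := fun v => by
  rw [End.mul_apply, End.mul_apply, h, h']
theorem Tw.add (h : Tw φ a b) (h' : Tw φ a' b') : Tw φ (a + a') (b + b') := fun v => by
  rw [LinearMap.add_apply, LinearMap.add_apply, map_add, h, h']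
theorem Tw.sub (h : Tw φ a b) (h' : Tw φ a' b') : Tw φ (a - a') (b - b') := fun v => by
  rw [LinearMap.sub_apply, LinearMap.sub_apply, map_sub, h, h']
theorem Tw.neg (h : Tw φ a b) : Tw φ (-a) (-b) := fun v => by
  rw [LinearMap.neg_apply, LinearMap.neg_apply, map_neg, h]
theorem Tw.pow (h : Tw φ a b) (n : ℕ) : Tw φ (a ^ n) (b ^ n) := by
  induction n with
  | zero => rw [pow_zero, pow_zero]; exact Tw.one
  | succ n ih => rw [pow_succ, pow_succ]; exact ih.mul h

variable {ρ : S7 →* End k3 W} {ρ' : S7 →* End k3 W'}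

theorem tw_e7 (h : ∀ g, Tw φ (ρ g) (ρ' g)) : Tw φ (e7 ρ) (e7 ρ') := fun v => by
  simp only [e7, LinearMap.sum_apply, map_sum]
  exact Finset.sum_congr rfl fun i _ => (h es).pow i v

theorem tw_RR (h : ∀ g, Tw φ (ρ g) (ρ' g)) : Tw φ (RR ρ) (RR ρ') :=
  (((tw_e7 h).mul (h ew)).mul (tw_e7 h)).sub (((Tw.one.add (h eu)).add ((h eu).pow 2)).mul (tw_e7 h))

/-- the projection onto the fixed space of `eg` -/
noncomputable def p4 (ρ : S7 →* End k3 W) : End k3 W := 1 + ρ eg + ρ eg ^ 2 + ρ eg ^ 3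
/-- the projection onto the `1`-eigenspace of `RR` -/
noncomputable def pP (ρ : S7 →* End k3 W) : End k3 W := -(e7 ρ + RR ρ)
/-- the projection onto the `-1`-eigenspace of `RR` -/
noncomputable def pM (ρ : S7 →* End k3 W) : End k3 W := -(e7 ρ - RR ρ)

theorem tw_p4 (h : ∀ g, Tw φ (ρ g) (ρ' g)) : Tw φ (p4 ρ) (p4 ρ') :=
  ((Tw.one.add (h eg)).add ((h eg).pow 2)).add ((h eg).pow 3)
theorem tw_pP (h : ∀ g, Tw φ (ρ g) (ρ' g)) : Tw φ (pP ρ) (pP ρ') := ((tw_e7 h).add (tw_RR h)).neg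
theorem tw_pM (h : ∀ g, Tw φ (ρ g) (ρ' g)) : Tw φ (pM ρ) (pM ρ') := ((tw_e7 h).sub (tw_RR h)).neg

theorem g4 (h : ρ (-1) = 1) : ρ eg ^ 4 = 1 := by
  rw [← map_pow, show eg ^ 4 = -1 from Subtype.ext (by decide), h]

theorem g_p4 (h : ρ (-1) = 1) (v : W) : ρ eg (p4 ρ v) = p4 ρ v := by
  have h1 : ρ eg * p4 ρ = p4 ρ := by
    have : ρ eg * p4 ρ = ρ eg ^ 4 + ρ eg + ρ eg ^ 2 + ρ eg ^ 3 := by unfold p4; noncomm_ring
    rw [this, g4 h, p4]
  rw [← End.mul_apply, h1]

theorem p4_fix {v : W} (hv : ρ eg v = v) : p4 ρ v = v := by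
  simp only [p4, pow_succ, pow_zero, one_mul, LinearMap.add_apply, End.mul_apply, End.one_apply, hv]
  rw [three, zero_add]

theorem p4_p4 (h : ρ (-1) = 1) : p4 ρ * p4 ρ = p4 ρ := LinearMap.ext fun v => p4_fix (g_p4 h v)

theorem fx_p4 (h : ρ (-1) = 1) : fx (ρ eg) = fx (p4 ρ) := by
  have : (ρ eg).eigenspace 1 = (p4 ρ).eigenspace 1 := by
    ext v
    rw [End.mem_eigenspace_iff, End.mem_eigenspace_iff, one_smul]
    exact ⟨p4_fix, fun hv => by rw [← hv, g_p4 h]⟩
  unfold fx; rw [this]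

theorem RRv (h : ρ (-1) = 1) (v : W) : RR ρ (RR ρ v) = e7 ρ v := by rw [← End.mul_apply, (RR_RR ρ h).1]
theorem Rev (h : ρ (-1) = 1) (v : W) : RR ρ (e7 ρ v) = RR ρ v := by rw [← End.mul_apply, (RR_RR ρ h).2.1]

theorem R_pP (h : ρ (-1) = 1) (v : W) : RR ρ (pP ρ v) = pP ρ v := by
  simp only [pP, LinearMap.neg_apply, LinearMap.add_apply, map_neg, map_add, RRv h, Rev h]
  abel

theorem pP_fix (h : ρ (-1) = 1) {v : W} (hv : RR ρ v = v) : pP ρ v = v := by
  have he : e7 ρ v = v := by rw [← RRv h, hv, hv]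
  simp only [pP, LinearMap.neg_apply, LinearMap.add_apply, he, hv]
  rw [neg_eq_iff_add_eq_zero, three]

theorem pP_pP (h : ρ (-1) = 1) : pP ρ * pP ρ = pP ρ := LinearMap.ext fun v => pP_fix h (R_pP h v)

theorem fx_pP (h : ρ (-1) = 1) : ap ρ = fx (pP ρ) := by
  have : (RR ρ).eigenspace 1 = (pP ρ).eigenspace 1 := by
    ext v
    rw [End.mem_eigenspace_iff, End.mem_eigenspace_iff, one_smul]
    exact ⟨pP_fix h, fun hv => by rw [← hv, R_pP h]⟩
  unfold fx ap; rw [this]

theorem R_pM (h : ρ (-1) = 1) (v : W) : RR ρ (pM ρ v) = -pM ρ v := by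
  simp only [pM, LinearMap.neg_apply, LinearMap.sub_apply, map_neg, map_sub, RRv h, Rev h]
  abel

theorem pM_fix (h : ρ (-1) = 1) {v : W} (hv : RR ρ v = -v) : pM ρ v = v := by
  have he : e7 ρ v = v := by rw [← RRv h, hv, map_neg, hv, neg_neg]
  simp only [pM, LinearMap.neg_apply, LinearMap.sub_apply, he, hv]
  rw [neg_eq_iff_add_eq_zero, sub_neg_eq_add, three]

theorem pM_pM (h : ρ (-1) = 1) : pM ρ * pM ρ = pM ρ := LinearMap.ext fun v => pM_fix h (R_pM h v)

theorem fx_pM (h : ρ (-1) = 1) : am ρ = fx (pM ρ) := by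
  have : (RR ρ).eigenspace (-1) = (pM ρ).eigenspace 1 := by
    ext v
    rw [End.mem_eigenspace_iff, End.mem_eigenspace_iff, one_smul, neg_smul, one_smul]
    exact ⟨pM_fix h, fun hv => by rw [← hv, R_pM h]⟩
  unfold fx am; rw [this]

/-- the subrepresentation -/
def subR (ρ : S7 →* End k3 W) {U : Submodule k3 W} (hU : Inv ρ U) : S7 →* End k3 U where
  toFun g := (ρ g).restrict (hU g)
  map_one' := by ext v; simp
  map_mul' g g' := by ext v; simp

/-- the quotient representation -/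
def quoR (ρ : S7 →* End k3 W) {U : Submodule k3 W} (hU : Inv ρ U) : S7 →* End k3 (W ⧸ U) where
  toFun g := U.mapQ U (ρ g) (hU g)
  map_one' := by ext v; simp
  map_mul' g g' := by ext v; simp

theorem tw_sub {U : Submodule k3 W} (hU : Inv ρ U) (g : S7) : Tw U.subtype (subR ρ hU g) (ρ g) := fun _ => rfl
theorem tw_quo {U : Submodule k3 W} (hU : Inv ρ U) (g : S7) : Tw U.mkQ (ρ g) (quoR ρ hU g) := fun _ => rfl

theorem sub_neg {U : Submodule k3 W} (hU : Inv ρ U) (h : ρ (-1) = 1) : subR ρ hU (-1) = 1 := by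
  ext v
  have := tw_sub hU (-1) v
  rw [h] at this
  exact this

theorem quo_neg {U : Submodule k3 W} (hU : Inv ρ U) (h : ρ (-1) = 1) : quoR ρ hU (-1) = 1 := by
  refine LinearMap.ext fun x => ?_
  obtain ⟨v, rfl⟩ := U.mkQ_surjective x
  rw [← tw_quo hU (-1) v, h]; rfl

theorem add [FiniteDimensional k3 W] {p : End k3 W} (hp : p * p = p) {U : Submodule k3 W} {p1 : End k3 U}
    {p2 : End k3 (W ⧸ U)} (h1 : Tw U.subtype p1 p) (h2 : Tw U.mkQ p p2) : fx p = fx p1 + fx p2 := by
  have hU : ∀ v ∈ U, p v ∈ U := fun v hv => by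
    have := h1 ⟨v, hv⟩
    simp only [Submodule.subtype_apply] at this
    rw [← this]; exact (p1 ⟨v, hv⟩).2
  have e1 : p1 = p.restrict hU := LinearMap.ext fun v => Subtype.ext (h1 v)
  have e2 : p2 = U.mapQ U p hU := by
    refine LinearMap.ext fun x => ?_
    obtain ⟨v, rfl⟩ := U.mkQ_surjective x
    rw [← h2 v]; rfl
  rw [e1, e2]
  exact idem_add hp hU

theorem main (n : ℕ) : ∀ (W : Type) [AddCommGroup W] [Module k3 W] [FiniteDimensional k3 W] (ρ : S7 →* End k3 W),
    ρ (-1) = 1 → finrank k3 W = n → 3 * fx (ρ eg) + 4 * am ρ ≤ finrank k3 W + 2 * ap ρ := by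
  induction n using Nat.strong_induction_on with
  | _ n ih =>
    intro W _ _ _ ρ h hn
    by_cases hs : ∀ U, Inv ρ U → U = ⊥ ∨ U = ⊤
    · by_cases h0 : fx (ρ es) = 0
      · have h1 := free ρ h h0
        have h2 := fx_es ρ h
        omega
      · exact simp_case ρ h hs h0
    · push Not at hs
      obtain ⟨U, hU, hb, ht⟩ := hs
      have d := U.finrank_quotient_add_finrank
      have d1 : finrank k3 U < finrank k3 W := Submodule.finrank_lt ht
      have d2 : finrank k3 U ≠ 0 := fun h0 => hb (Submodule.finrank_eq_zero.1 h0)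
      have hs' := sub_neg hU h
      have hq' := quo_neg hU h
      have i1 := ih _ (by omega) U (subR ρ hU) hs' rfl
      have i2 := ih _ (by omega) (W ⧸ U) (quoR ρ hU) hq' rfl
      have a1 := add (p4_p4 h) (tw_p4 (tw_sub hU)) (tw_p4 (tw_quo hU))
      have a2 := add (pP_pP h) (tw_pP (tw_sub hU)) (tw_pP (tw_quo hU))
      have a3 := add (pM_pM h) (tw_pM (tw_sub hU)) (tw_pM (tw_quo hU))
      rw [fx_p4 hs', fx_pP hs', fx_pM hs'] at i1
      rw [fx_p4 hq', fx_pP hq', fx_pM hq'] at i2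
      rw [fx_p4 h, fx_pP h, fx_pM h]
      omega

end Ind

/-- Strong induction on n = finrank (generalising W, ρ). If there is an invariant U ≠ ⊥, ⊤: sub and quotient
representations (as `CL.E82.subR`, `quoR`; redefine them here), and fx (ρ eg) = fx p4, p4 = 1 + g + g² + g³ (g⁴ = ρ(-1) = 1),
ap = fx (-(e + R)), am = fx (-(e - R)) (idempotents by `RR_RR`, 2 = -1) are additive by `idem_add`, the operators
being polynomial in ρ. Otherwise `simp_case`, or `free` with `fx_es` (ap = am = 0). -/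
theorem claimI [FiniteDimensional k3 W] (ρ : S7 →* End k3 W) (h : ρ (-1) = 1) :
    3 * fx (ρ eg) + 4 * am ρ ≤ finrank k3 W + 2 * ap ρ :=
  Ind.main _ W ρ h rfl

theorem mod_main [FiniteDimensional k3 W] (ρ : S7 →* End k3 W) (h : ρ (-1) = 1) (B : LinearMap.BilinForm k3 W)
    (hs : ∀ x y, B x y = B y x) (hn : ∀ x, (∀ y, B x y = 0) → x = 0) (hi : ∀ g x y, B (ρ g x) (ρ g y) = B x y) :
    3 * fx (ρ eg) + 2 * fx (ρ es) ≤ finrank k3 W + 6 * finrank k3 (Fix ρ) := by
  have h1 := claimI ρ h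
  have h2 := hkB ρ h B hs hn hi
  have h3 := fx_es ρ h
  omega

end CL.E87
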