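/-
`E₈(3)`, `L₂(7)`: the argument.
-/
import Cfsg.Agent.KSG.E87.Ind
import Cfsg.Agent.KSG.E87.Cnt
import Cfsg.Agent.KSG.E87.Grp2

set_option autoImplicit false
set_option maxHeartbeats 400000

namespace CL.E87
open Module Function Finset

variable {W : Type} [AddCommGroup W] [Module k3 W] {G : Type*} [Group G] (ρ : G →* End k3 W)

theorem comm_fix {g x : G} (hg : g ∈ Subgroup.centralizer {x}) {w : W} (hw : ρ x w = w) :
    ρ g w ∈ (ρ x).eigenspace 1 := by
  rw [End.mem_eigenspace_iff, one_smul, ← End.mul_apply, ← map_mul, ← Subgroup.mem_centralizer_singleton_iff.1 hg,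
    map_mul, End.mul_apply, hw]

theorem gen [FiniteDimensional k3 W] [Finite G] [IsSimpleGroup G] (hn : finrank k3 W = 248) (hG : 2 < Nat.card G)
    (nofix : ∀ v, (∀ g, ρ g v = v) → v = 0)
    (form : ∃ B : LinearMap.BilinForm k3 W, (∀ x y, B x y = B y x) ∧ (∀ x, (∀ y, B x y = 0) → x = 0) ∧
      ∀ g x y, B (ρ g x) (ρ g y) = B x y)
    (dim2 : ∀ {g : G}, g * g = 1 → g ≠ 1 → fx (ρ g) = 120 ∨
      (fx (ρ g) = 136 ∧ 16 * 3 ^ 136 < 26 * Nat.card (Subgroup.centralizer {g})))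
    (dim4 : ∀ {g : G}, g ^ 4 = 1 → g ^ 2 ≠ 1 → 60 ≤ fx (ρ g) ∧ (fx (ρ (g ^ 2)) = 136 → 66 ≤ fx (ρ g)))
    (dim7 : ∀ {g : G}, g ^ 7 = 1 → g ≠ 1 → 38 ≤ fx (ρ g))
    (big : ∀ {a b : G}, a * a = 1 → b * b = 1 → a * b = b * a → fx (ρ a) = 120 → fx (ρ b) = 120 → fx (ρ (a * b)) = 120 →
      3 ^ 56 < Nat.card ↥(Subgroup.centralizer {a} ⊓ Subgroup.centralizer {b}))
    {H : Subgroup G} {θ : S7 →* G} (E : Emb H θ) : ¬ IsCoatom H := fun hH => by
  have ne : ∀ g : S7, g ≠ 1 → g ≠ -1 → θ g ≠ 1 := fun g h1 h2 e => (E.ker g e).elim h1 h2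
  have ng : ∀ g : S7, θ (-g) = θ g := fun g => by rw [← neg_one_mul, map_mul, E.neg, one_mul]
  have w2 : θ ew * θ ew = 1 := by rw [← map_mul, show ew * ew = -1 by decide, E.neg]
  have b2 : θ eb * θ eb = 1 := by rw [← map_mul, show eb * eb = -1 by decide, E.neg]
  have wb : θ ew * θ eb = θ eb * θ ew := by rw [← map_mul, ← map_mul, show ew * eb = -(eb * ew) by decide, ng]
  have g2 : θ eg ^ 2 = θ ew := by rw [← map_pow, show eg ^ 2 = ew by decide]
  have w1 : θ ew ≠ 1 := ne _ (by decide) (by decide)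
  have d4 := dim4 (g := θ eg) (by rw [show 4 = 2 * 2 from rfl, pow_mul, g2, sq, w2]) (g2 ▸ w1)
  have d7 := dim7 (g := θ es) (by rw [← map_pow, show es ^ 7 = 1 by decide, map_one]) (ne _ (by decide) (by decide))
  obtain ⟨B, b1, b3, b4⟩ := form
  have M : 3 * fx (ρ (θ eg)) + 2 * fx (ρ (θ es)) ≤ finrank k3 W + 6 * finrank k3 (Fix (ρ.comp θ)) :=
    mod_main (ρ.comp θ) (by rw [MonoidHom.comp_apply, E.neg, map_one]) B b1 b3 fun g => b4 (θ g)
  rw [hn] at M
  rw [g2] at d4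
  obtain ⟨a, b, hab, hY⟩ := ysz ρ E E.idx
  obtain ⟨Y, eY⟩ : ∃ Y, Y = {w | w ∈ Fix (ρ.comp θ) ∧ w ≠ 0 ∧ ∀ h ∈ H, ρ h w = w ∨ ρ h w = -w} := ⟨_, rfl⟩
  rw [← eY] at hY
  have fY : ∀ w ∈ Y, ∀ g, ρ (θ g) w = w := fun w hw => (mem_Fix _).1 (eY ▸ hw :).1
  have K := fun (C : Subgroup G) (U : Submodule k3 W) => cnt ρ hG nofix hH
    (fun e => w1 (Subgroup.mem_bot.1 (e ▸ E.le ew))) (Y := Y) (fun w hw => (eY ▸ hw :).2) (C := C) (U := U)
  have p1 : ∀ n, 1 ≤ 3 ^ n := fun n => Nat.one_le_pow _ _ (by norm_num)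
  have p2 : ∀ {n k}, k ≤ n → 3 ^ k ≤ 3 ^ n := fun h => Nat.pow_le_pow_right (by norm_num) h
  rcases dim2 w2 w1 with f | ⟨f, hc⟩
  · have y4 : 4 ≤ Y.ncard := by
      rcases Nat.eq_zero_or_pos a with rfl | h1
      · have := p2 (show 2 ≤ b by omega); omega
      rcases Nat.eq_zero_or_pos b with rfl | h2
      · have := p2 (show 2 ≤ a by omega); omega
      have := p2 h1; have := p2 h2; omega
    have cj : ∀ c x : S7, c * ew * c⁻¹ = x ∨ c * ew * c⁻¹ = -x → fx (ρ (θ x)) = 120 := fun c x h => by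
      have := fx_conj (ρ.comp θ) c ew
      rcases h with h | h <;> rw [h] at this
      · exact this.trans f
      · rw [MonoidHom.comp_apply, ng] at this; exact this.trans f
    have fb := cj ⟨!![0, 3; 2, 6], by decide⟩ eb (Or.inr (by decide))
    have fab := cj ⟨!![0, 2; 3, 6], by decide⟩ (ew * eb) (Or.inl (by decide))
    rw [map_mul] at fab
    have sq : ∀ {g : G}, g * g = 1 → ∀ v, ρ g (ρ g v) = v := fun hg v => by
      rw [← End.mul_apply, ← map_mul, hg, map_one, End.one_apply]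
    have F := four (U := ⊤) (a := ρ (θ ew)) (b := ρ (θ eb)) (fun _ _ => trivial) (fun _ _ => trivial)
      (fun v _ => sq w2 v) (fun v _ => sq b2 v) fun v _ => by
        rw [← End.mul_apply, ← map_mul, wb, map_mul, End.mul_apply]
    rw [top_inf_eq, top_inf_eq, top_inf_eq, finrank_top, hn, ← map_mul] at F
    have h56 : finrank k3 ↥((ρ (θ ew)).eigenspace 1 ⊓ (ρ (θ eb)).eigenspace 1) = 56 := by
      unfold fx at f fb fab; omega
    have k := K (Subgroup.centralizer {θ ew} ⊓ Subgroup.centralizer {θ eb})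
      ((ρ (θ ew)).eigenspace 1 ⊓ (ρ (θ eb)).eigenspace 1) fun g hg w hw =>
        ⟨comm_fix ρ hg.1 (fY w hw ew), comm_fix ρ hg.2 (fY w hw eb)⟩
    rw [h56] at k
    have k1 := big w2 b2 wb f fb fab
    have k2 := (Nat.mul_le_mul_right _ y4).trans (k.trans (Nat.mul_le_mul_right _ E.card4))
    omega
  · have y26 : 26 ≤ Y.ncard := by
      have := d4.2 f
      have := p1 a; have := p1 b
      rcases le_total a b with h | h
      · have := p2 (show 3 ≤ b by omega); omega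
      · have := p2 (show 3 ≤ a by omega); omega
    have k := K (Subgroup.centralizer {θ ew}) _ fun g hg w hw => comm_fix ρ hg (fY w hw ew)
    rw [show finrank k3 ((ρ (θ ew)).eigenspace 1) = 136 from f] at k
    exact absurd ((Nat.mul_le_mul_right _ y26).trans (k.trans (Nat.mul_le_mul_right _ E.card2))) (not_le.2 hc)

end CL.E87
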