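/-
`E₈(3)`, `L₂(7)`: the embedding.
-/
import Cfsg.Agent.KSG.E87.Defs
import Cfsg.Agent.S1265
import Cfsg.Agent.CLAS.AutPSL

set_option autoImplicit false

namespace CL.E87
open Module Function Finset
open scoped MatrixGroups

namespace Grp

theorem cen2 (g : S7) (h1 : es * g = g * es ∨ es * g = -(g * es)) (h2 : ew * g = g * ew ∨ ew * g = -(g * ew)) :
    g = 1 ∨ g = -1 := by
  have key : ∀ a b c d : ZMod 7, a * d - b * c = 1 →
      (es.1 * !![a, b; c, d] = !![a, b; c, d] * es.1 ∨ es.1 * !![a, b; c, d] = -(!![a, b; c, d] * es.1)) →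
      (ew.1 * !![a, b; c, d] = !![a, b; c, d] * ew.1 ∨ ew.1 * !![a, b; c, d] = -(!![a, b; c, d] * ew.1)) →
      !![a, b; c, d] = 1 ∨ !![a, b; c, d] = -1 := by decide +kernel
  have hd := g.2
  rw [Matrix.det_fin_two] at hd
  have := key _ _ _ _ hd
  rw [← Matrix.eta_fin_two g.1] at this
  exact (this (h1.imp (congrArg Subtype.val) (congrArg Subtype.val))
    (h2.imp (congrArg Subtype.val) (congrArg Subtype.val))).imp Subtype.ext Subtype.ext

theorem cen (g : S7) : g ∈ Subgroup.center S7 ↔ g = 1 ∨ g = -1 := by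
  refine ⟨fun hg => cen2 g (.inl (Subgroup.mem_center_iff.1 hg _)) (.inl (Subgroup.mem_center_iff.1 hg _)), ?_⟩
  rintro (rfl | rfl)
  exacts [one_mem _, Subgroup.mem_center_iff.2 fun g => by simp]

end Grp

/-- Pattern `CL.E82.exists_emb` (KSG/E82/Grp.lean, with `Cfsg.Agent.S1265.result`). F ≃+* ZMod 7 (`ZMod.ringEquivOfPrime` /
`FiniteField.ringEquivOfCardEq`), transport PSL(2,F) ≃* PSL(2, ZMod 7) (search the library: `dg "ProjectiveSpecialLinearGroup.*≃"`);
θ = inclusion ∘ e.symm ∘ mk. `ker`: the centre of S7 is ±1. `cen`: h centralises F*(H), so h ∈ F*(H) (S1265), h = θ g with g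
central modulo the centre; PSL(2,7) has trivial centre (or directly: g es = ± es g, g ew = ± ew g force g = ± 1, `decide`).
`gl`: conjugation by h is an automorphism β of PSL(2, ZMod 7); `CL.AutPSL.exists_eq_gam` gives β = gam γ, γ semilinear, and
`ZMod 7` has no nontrivial ring automorphism, so γ is a matrix M with β (mk g) = mk g', g' = M g M⁻¹. -/
theorem exists_emb {F : Type*} [Field F] [Fintype F] (hF : Fintype.card F = 7) {G : Type*} [Group G] [Finite G]
    (H : Subgroup G) (hH : Nonempty (Cfsg.generalizedFittingSubgroup H ≃* Matrix.ProjectiveSpecialLinearGroup (Fin 2) F)) :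
    ∃ θ : S7 →* G, Emb H θ := by
  obtain ⟨e0⟩ := hH
  have : Fact (Nat.Prime 7) := ⟨by norm_num⟩
  let r : F ≃+* ZMod 7 := FiniteField.ringEquivOfCardEq (hF.trans (ZMod.card 7).symm)
  let e : Cfsg.generalizedFittingSubgroup H ≃* Matrix.ProjectiveSpecialLinearGroup (Fin 2) (ZMod 7) :=
    e0.trans (AutInd.quotCenterEquiv (MonoidHom.toMulEquiv (Matrix.SpecialLinearGroup.map r.toRingHom)
      (Matrix.SpecialLinearGroup.map r.symm.toRingHom) (by ext g i j; simp) (by ext g i j; simp)))
  let π : S7 →* Cfsg.generalizedFittingSubgroup H := e.symm.toMonoidHom.comp (QuotientGroup.mk' _)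
  have hs : Surjective π := e.symm.surjective.comp (QuotientGroup.mk'_surjective _)
  have hk : ∀ g, π g = 1 ↔ g = 1 ∨ g = -1 := fun g => by
    rw [← Grp.cen]
    simp [π]
  refine ⟨H.subtype.comp ((Cfsg.generalizedFittingSubgroup H).subtype.comp π), ?_, fun g hg => ?_,
    fun g => (π g : H).2, fun h hh hc => ?_, fun h hh => ?_⟩
  · simp [(hk _).2 (.inr rfl)]
  · exact (hk g).1 (Subtype.ext (Subtype.ext hg))
  · have h3 := Cfsg.Agent.S1265.result (G := H) (x := ⟨h, hh⟩) fun y hy => by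
      obtain ⟨g, hg⟩ := hs ⟨y, hy⟩
      have := (hc g).eq
      apply Subtype.ext
      rw [show y = (π g : H) by rw [hg]]
      exact this.symm
    obtain ⟨g, hg⟩ := hs ⟨⟨h, hh⟩, h3⟩
    have hg' : ((π g : H) : G) = h := by rw [hg]
    have k : ∀ a, a * g = g * a ∨ a * g = -(g * a) := fun a => by
      have : π (g * a) = π (a * g) := Subtype.ext (Subtype.ext (by
        have := (hc a).eq
        rw [← hg'] at this
        simpa using this))
      rw [← inv_mul_eq_one, ← map_inv, ← map_mul, hk] at this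
      simpa only [inv_mul_eq_iff_eq_mul, mul_one, mul_neg] using this
    rw [← hg', (hk g).2 (Grp.cen2 g (k _) (k _))]
    rfl
  · obtain ⟨γ, hγ | ⟨h3, -⟩⟩ := AutPSL.exists_eq_gam (ι := Fin 2) (F := ZMod 7) (by simp)
      (e.symm.trans ((MulAut.conjNormal (⟨h, hh⟩ : H)).trans e))
    · refine ⟨γ.left, γ.left.det_ne_zero, fun g => ?_⟩
      obtain ⟨g', hg'⟩ := AutPSL.exists_toGL_eq ((AutSL.conjAut_mem_SL_iff γ _).1 (AutPSL.toGL_mem_SL g))
      have a := AutPSL.gam_mk hg'
      rw [← hγ] at a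
      refine ⟨g', ?_, ?_⟩
      · have b := congrArg Units.val (eq_mul_inv_iff_mul_eq.1 hg')
        rw [Subsingleton.elim γ.right 1, map_one] at b
        exact b.symm
      · exact congrArg (fun y : Cfsg.generalizedFittingSubgroup H => ((y : H) : G)) (e.eq_symm_apply.2 a)
    · simp at h3

end CL.E87
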