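/-
Fixed points of a twisted Frobenius map on a unipotent subgroup.
-/
import Cfsg.Agent.CHEV.SsSub

set_option autoImplicit false

namespace CL.E87.TwUx
open CL.Chev CL.Chev.StData

variable {ι κ : Type*} [Fintype κ] [DecidableEq κ] {R : RootSys ι κ} {K Γ : Type*} [Field K] [Group Γ]
  {S : StData R K Γ} {φ : K →+* K} {q : ℕ} {σ : Monoid.End Γ} [Finite ι] [IsAlgClosed K]

omit [Finite ι] in
theorem roots (A : S.Alg φ q σ) {n : ℕ} (hn : 0 < n) {d : K} (hd : d ≠ 0) :
    ∃ f : {b : K // (φ ^ n) b = b} → K, Function.Injective f ∧ ∀ b, d * f b ^ q ^ n = f b := by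
  have h3 := Nat.one_lt_pow hn.ne' A.frob.one_lt
  obtain ⟨e, he⟩ := IsAlgClosed.exists_pow_nat_eq d⁻¹ (n := q ^ n - 1) (by omega)
  have h0 : e ≠ 0 := by rintro rfl; exact inv_ne_zero hd (by rw [← he, zero_pow (by omega)])
  refine ⟨fun b => e * b, fun b b' h => Subtype.ext (mul_left_cancel₀ h0 h), fun b => ?_⟩
  have hb := b.2
  rw [A.frob.pow_apply] at hb
  have : e ^ q ^ n = d⁻¹ * e := by rw [← he, ← pow_succ, Nat.sub_add_cancel h3.le]
  simp only [mul_pow, hb, this]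
  field_simp

theorem exists_F {w v : Equiv.Perm ι} (hw : w ∈ R.W) (hv : v ∈ R.W) {T : Set ι} (hT : ∀ r ∈ T, R.IsPos (v r))
    (hs : ∀ r ∈ T, w r ∈ T) : ∃ F : ι → ℤ, (∀ r, F (w r) = F r) ∧ (∀ r ∈ T, 0 < F r) ∧
      ∀ r s k, R.IsComb r s k → ∃ i j : ℕ, 0 < i ∧ 0 < j ∧ F k = i * F r + j * F s := by
  have hp : ∀ i : ℕ, ∀ r ∈ T, (w ^ i) r ∈ T := fun i r hr => by
    induction i with
    | zero => simpa using hr
    | succ i ih => rw [pow_succ', Equiv.Perm.mul_apply]; exact hs _ ih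
  refine ⟨fun r => ∑ i ∈ Finset.range (orderOf w), R.ht (v ((w ^ i) r)), fun r => ?_, fun r hr => ?_, ?_⟩
  · have h1 := Finset.sum_range_succ (fun i => R.ht (v ((w ^ i) r))) (orderOf w)
    have h2 := Finset.sum_range_succ' (fun i => R.ht (v ((w ^ i) r))) (orderOf w)
    simp only [pow_orderOf_eq_one, pow_zero, pow_succ, Equiv.Perm.mul_apply] at h1 h2
    simp only
    linarith
  · exact Finset.sum_pos (fun i _ => hT _ (hp i r hr)) ⟨0, Finset.mem_range.2 (orderOf_pos w)⟩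
  · rintro r s k ⟨i, j, hi, hj, e⟩
    refine ⟨i, j, hi, hj, ?_⟩
    simp only [Finset.mul_sum, ← Finset.sum_add_distrib]
    refine Finset.sum_congr rfl fun n _ => ?_
    obtain ⟨L, hL⟩ := RootSys.W_exists_linear (mul_mem hv (pow_mem hw n))
    simp only [Equiv.Perm.mul_apply] at hL
    simp only [← R.htL_rt, hL, e, map_add, map_zsmul, smul_eq_mul]

theorem card_le (A : S.Alg φ q σ) {m : Γ} {w v : Equiv.Perm ι} (hm : S.Acts m w) (hv : v ∈ R.W) {T : Set ι}
    (hT : ∀ r ∈ T, R.IsPos (v r)) (hc : R.Closed T) (hs : ∀ r ∈ T, w r ∈ T) :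
    q ^ T.ncard ≤ Nat.card ↥(S.XS T ⊓ fixS (twE m σ)) := by
  classical
  set τ := twE m σ with hτ
  have hG : S.GF σ τ := A.gf_twE A.gf hm
  have := A.finite_fixS_of_pow hG.pow
  have hfin : ∀ T, Finite ↥(S.XS T ⊓ fixS τ) := fun T =>
    Finite.of_injective _ (Subgroup.inclusion_injective inf_le_right)
  have hx : ∀ r, ∃ c : K, c ≠ 0 ∧ ∀ t, τ (S.x r t) = S.x (w r) (c * t ^ q) := fun r => by
    obtain ⟨c, hc, e⟩ := hm.exists_conj r
    exact ⟨c, hc, fun t => by rw [hτ, twE_apply, A.fe, e, A.frob.apply]⟩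
  have hx' : ∀ r (i : ℕ), ∃ c : K, c ≠ 0 ∧ ∀ t, (τ ^ i) (S.x r t) = S.x (w^[i] r) (c * t ^ q ^ i) := fun r i => by
    induction i with
    | zero => exact ⟨1, one_ne_zero, fun t => by simp⟩
    | succ i ih =>
      obtain ⟨c, hc, e⟩ := ih
      obtain ⟨c', hc', e'⟩ := hx (w^[i] r)
      exact ⟨c' * c ^ q, mul_ne_zero hc' (pow_ne_zero _ hc), fun t => by
        rw [pow_succ', Lang.end_mul_apply, e, e', Function.iterate_succ_apply', mul_pow, ← pow_mul, ← pow_succ,
          mul_assoc]⟩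
  induction hn : T.ncard using Nat.strong_induction_on generalizing T with
  | _ n ih =>
  subst hn
  rcases T.eq_empty_or_nonempty with rfl | hne
  · have := hfin ∅
    rw [Set.ncard_empty, pow_zero]
    exact Nat.card_pos
  obtain ⟨F, F1, F2, F3⟩ := exists_F hm.mem_W hv hT hs
  obtain ⟨r, hr, hmin⟩ := Set.exists_min_image T F (Set.toFinite _) hne
  have hper : r ∈ Function.periodicPts w := w.injective.mem_periodicPts r
  obtain ⟨n, hn⟩ := Nat.exists_eq_succ_of_ne_zero (Function.minimalPeriod_pos_of_mem_periodicPts hper).ne'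
  have hinj : Set.InjOn (fun i => w^[i] r) (Set.Iio (n + 1)) := by
    have := Function.iterate_injOn_Iio_minimalPeriod (f := w) (x := r)
    rwa [hn] at this
  have hrn : w^[n + 1] r = r := by
    have := Function.iterate_minimalPeriod (f := w) (x := r)
    rwa [hn] at this
  let O : Set ι := (fun i => w^[i] r) '' Set.Iio (n + 1)
  have hit : ∀ i, w^[i] r ∈ T ∧ F (w^[i] r) = F r := fun i => by
    induction i with
    | zero => exact ⟨hr, rfl⟩
    | succ i ih => rw [Function.iterate_succ_apply']; exact ⟨hs _ ih.1, (F1 _).trans ih.2⟩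
  have hO : O ⊆ T := by rintro _ ⟨i, -, rfl⟩; exact (hit i).1
  have hrO : r ∈ O := ⟨0, Nat.succ_pos n, rfl⟩
  have hk : ∀ a ∈ T, ∀ b ∈ T, ∀ k, R.IsComb a b k → k ∈ T \ O := fun a ha b hb k h => by
    refine ⟨hc a ha b hb k h, ?_⟩
    rintro ⟨i, -, rfl⟩
    obtain ⟨i', j, h1, h2, e⟩ := F3 _ _ _ h
    have := (hit i).2
    have := hmin a ha
    have := F2 a ha
    have := F2 b hb
    nlinarith
  have hcard : T.ncard = (T \ O).ncard + (n + 1) := by
    rw [← Set.ncard_sdiff_add_ncard_of_subset hO, hinj.ncard_image]; simp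
  have hs' : ∀ a ∈ T \ O, w a ∈ T \ O := fun a ha => ⟨hs a ha.1, by
    rintro ⟨i, hi, e⟩
    refine ha.2 ?_
    rcases i with _ | i
    · exact ⟨n, Nat.lt_succ_self n, w.injective (by
        rw [← e]; exact (Function.iterate_succ_apply' w n r).symm.trans hrn)⟩
    · exact ⟨i, lt_trans (Nat.lt_succ_self i) hi, w.injective (by
        rw [← e]; exact (Function.iterate_succ_apply' w i r).symm)⟩⟩
  have hN := RootSys.nilp_of_W hv hT
  have hI : R.Ideal T (T \ O) := ⟨Set.sdiff_subset, fun a ha b hb => hk a ha b hb.1⟩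
  have h1 := ih _ (by omega) (fun a ha => hT a ha.1) (fun a ha b hb => hk a ha.1 b hb.1) hs' rfl
  obtain ⟨d, hd, e⟩ := hx' r (n + 1)
  obtain ⟨f, hf, hf'⟩ := roots A (Nat.succ_pos n) hd
  let g : K → Γ := fun a => ((List.range n).map fun i => (τ ^ (i + 1)) (S.x r a)).prod
  have hsub : T \ O ⊆ T \ {r} := Set.sdiff_subset_sdiff_right (Set.singleton_subset_iff.2 hrO)
  have hg : ∀ a, g a ∈ S.XS (T \ {r}) := fun a => Subgroup.list_prod_mem _ fun y hy => by
    obtain ⟨i, hi, rfl⟩ := List.mem_map.1 hy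
    obtain ⟨c, -, e⟩ := hx' r (i + 1)
    rw [e]
    refine S.x_mem_XS (T := T \ {r}) ⟨(hit _).1, fun h => ?_⟩ _
    have := hinj (x₁ := i + 1) (x₂ := 0) (by simpa using hi) (Nat.succ_pos n) h
    omega
  have hτg : ∀ b, τ (S.x r (f b) * g (f b)) = g (f b) * S.x r (f b) := fun b => by
    have h2 : ∀ k, τ (S.x r (f b) * ((List.range k).map fun i => (τ ^ (i + 1)) (S.x r (f b))).prod) =
        ((List.range k).map fun i => (τ ^ (i + 1)) (S.x r (f b))).prod * (τ ^ (k + 1)) (S.x r (f b)) := fun k => by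
      induction k with
      | zero => simp
      | succ k ih =>
        rw [List.range_succ, List.map_append, List.prod_append, ← mul_assoc, map_mul, ih, pow_succ' τ (k + 1),
          Lang.end_mul_apply]
        simp
    rw [h2, e, hrn, hf']
  have hL := A.lang_XS hG.pow (T := T \ O) fun a ha => by
    obtain ⟨c, -, e⟩ := hx a
    exact ⟨_, hs' a ha, c, q, e⟩
  have hnm := S.le_normalizer_of_ideal hN hI
  have hz : ∀ b, ∃ z ∈ S.XS (T \ O), τ (S.x r (f b) * g (f b) * z) = S.x r (f b) * g (f b) * z := fun b => by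
    obtain ⟨z, hz, e⟩ := hL _ (S.comm_mem_of_le_normalizer (fun _ ha _ hb => hN.ne_neg ha hb) hnm hnm
      (fun a ha b hb k h v => S.x_mem_XS (hk a ha b hb k h) v) (S.x_mem_XS hr (f b))
      (S.XS_mono Set.sdiff_subset (hg (f b))))
    refine ⟨z, hz, ?_⟩
    rw [map_mul, hτg, ← eq_mul_inv_iff_mul_eq, mul_assoc _ z, ← e]; group
  choose z hz hz' using hz
  let G : {b : K // (φ ^ (n + 1)) b = b} × ↥(S.XS (T \ O) ⊓ fixS τ) → ↥(S.XS T ⊓ fixS τ) := fun p =>
    ⟨S.x r (f p.1) * g (f p.1) * z p.1 * p.2, mul_mem (mul_mem (mul_mem (S.x_mem_XS hr _)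
      (S.XS_mono Set.sdiff_subset (hg _))) (S.XS_mono Set.sdiff_subset (hz _))) (S.XS_mono Set.sdiff_subset p.2.2.1),
      mul_mem (hz' _) p.2.2.2⟩
  have hG : Function.Injective G := by
    rintro ⟨b, y⟩ ⟨b', y'⟩ e
    have e1 : S.x r (f b) * g (f b) * z b * y = S.x r (f b') * g (f b') * z b' * y' := congrArg Subtype.val e
    have h3 : S.x r (-f b' + f b) = (g (f b') * z b' * y') * (g (f b) * z b * y)⁻¹ := by
      rw [S.x_add, x_neg, eq_mul_inv_iff_mul_eq, mul_assoc, ← mul_assoc (S.x r _), ← mul_assoc (S.x r _), e1]; group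
    have h4 := A.good.indep hv (hT r hr) (T := T \ {r}) (fun a ha => hT a ha.1)
      (fun a ha b hb k h => hsub (hk a ha.1 b hb.1 k h)) (fun h => h.2 rfl) (h3 ▸ mul_mem
        (mul_mem (mul_mem (hg _) (S.XS_mono hsub (hz _))) (S.XS_mono hsub y'.2.1))
        (inv_mem (mul_mem (mul_mem (hg _) (S.XS_mono hsub (hz _))) (S.XS_mono hsub y.2.1))))
    obtain rfl : b = b' := hf (by linear_combination h4)
    obtain rfl : y = y' := Subtype.ext (mul_left_cancel e1)
    rfl
  have := hfin T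
  have h5 := Nat.card_le_card_of_injective G hG
  rw [Nat.card_prod, (A.frob.pow (Nat.succ_pos n)).card_fixed] at h5
  rw [hcard, pow_add, mul_comm]
  exact le_trans (Nat.mul_le_mul_left _ h1) h5

end CL.E87.TwUx
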