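/-
`E₈(3)`, `L₂(7)`: the two unipotent factors commute and meet trivially.
-/
import Cfsg.Agent.KSG.E87.Rts
import Cfsg.Agent.CHEV.Rank2

set_option autoImplicit false
set_option maxRecDepth 20000
set_option backward.isDefEq.respectTransparency false

namespace CL.E87.TwU2
open Module Function Finset CL.Chev CL.AltE Cfsg.Lie
open CL.E82 (R8)
open CL.E83 (K3 G3)
open CL.E81 (Γ3 sig psi alg tor8)

theorem long8 (r : R8) : RS.Long r := by
  revert r; unfold RootSys.Long; decide +kernel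

theorem closed_D1 : RS.Closed {r : R8 | r ∈ D1} := by
  have : {r : R8 | r ∈ D1} = setL chevE8 (D1.map Fin.val) :=
    Set.ext fun r => by rw [mem_setL, Set.mem_ofPred_eq]; revert r; decide +kernel
  rw [this]; exact closed_setL (by decide +kernel)

theorem closed_D2 : RS.Closed {r : R8 | r ∈ D2} := by
  have : {r : R8 | r ∈ D2} = setL chevE8 (D2.map Fin.val) :=
    Set.ext fun r => by rw [mem_setL, Set.mem_ofPred_eq]; revert r; decide +kernel
  rw [this]; exact closed_setL (by decide +kernel)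

theorem pos_D1 : ∀ r ∈ {r : R8 | r ∈ D1}, RS.IsPos r := fun r h => ((mem_PQ r).2 (Or.inl h)).1
theorem pos_D2 : ∀ r ∈ {r : R8 | r ∈ D2}, RS.IsPos r := fun r h => ((mem_PQ r).2 (Or.inr h)).1

theorem pair0 : ∀ r ∈ D1, ∀ s ∈ D2, RS.pair r s = 0 := by
  simp only [rootSys_pair']
  decide +kernel

theorem twU2 : (∀ x ∈ SS.XS {r : R8 | r ∈ D1}, ∀ y ∈ SS.XS {r : R8 | r ∈ D2}, x * y = y * x) ∧
    ∀ x ∈ SS.XS {r : R8 | r ∈ D1}, x ∈ SS.XS {r : R8 | r ∈ D2} → x = 1 := by
  refine ⟨fun x hx y hy => ?_, fun x hx hx' => ?_⟩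
  · have : SS.XS {r : R8 | r ∈ D1} ≤ Subgroup.centralizer {y} := SS.XS_le_iff.2 fun r hr t => by
      have : SS.XS {r : R8 | r ∈ D2} ≤ Subgroup.centralizer {SS.x r t} := SS.XS_le_iff.2 fun s hs u =>
        Subgroup.mem_centralizer_singleton_iff.2
          (SS.comm_of_noComb ((long8 r).noComb (pair0 r hr s hs).ge) t u).symm
      exact Subgroup.mem_centralizer_singleton_iff.2 (Subgroup.mem_centralizer_singleton_iff.1 (this hy)).symm
    exact Subgroup.mem_centralizer_singleton_iff.1 (this hx)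
  · have e := alg.good.XS_inf_of_nilp pos_D1 closed_D1 (RS.nilp_pos pos_D2) closed_D2
    have : {r : R8 | r ∈ D1} ∩ {r : R8 | r ∈ D2} = ∅ := Set.eq_empty_of_forall_notMem fun r h => by
      have := pair0 r h.1 r h.2
      rw [RS.pair_self] at this
      omega
    rw [this, SS.XS_empty] at e
    exact Subgroup.mem_bot.1 (e ▸ (⟨hx, hx'⟩ : x ∈ SS.XS _ ⊓ SS.XS _))

end CL.E87.TwU2
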