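/-
`E₈(3)`, `L₂(7)`: the twisted form: unipotent elements, by orbits of roots.
-/
import Cfsg.Agent.KSG.E87.Rts
import Cfsg.Agent.KSG.E87.TwUx

set_option autoImplicit false
set_option maxRecDepth 20000
set_option backward.isDefEq.respectTransparency false

namespace CL.E87.TwU3
open Module Function Finset CL.Chev CL.AltE Cfsg.Lie
open CL.E82 (R8)
open CL.E83 (K3 G3)
open CL.E81 (Γ3 sig psi alg tor8)

theorem twU : 9 ^ 12 ≤ Nat.card ↥(SS.XS PQ ⊓ fixS tau) := by
  have h := TwUx.card_le alg acts_n0 (one_mem _) (T := PQ) (fun r h => h.1) closed_PQ (fun r h => (w0_PQ r).2 h)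
  rw [ncard_PQ] at h
  refine le_trans (le_of_eq ?_) h
  simp

end CL.E87.TwU3
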