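/-
`E₈(3)`, `L₂(7)`: the element swapping the two factors is not in the Weyl group of the subsystem.
-/
import Cfsg.Agent.KSG.E87.Rts

set_option autoImplicit false
set_option maxRecDepth 20000
set_option backward.isDefEq.respectTransparency false

namespace CL.E87.W0n
open Module Function Finset CL.Chev CL.AltE Cfsg.Lie
open CL.E82 (R8)
open CL.E83 (K3 G3)
open CL.E81 (Γ3 sig psi alg tor8)

/-- orthogonal to the second factor -/
def T (r : R8) : Prop := ∀ i : R8, i ∈ D2 → RS.pair i r = 0

theorem T_D1 (s : R8) (h : s ∈ D1 ∨ ng s ∈ D1) : T s := by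
  simp only [T, rootSys_pair']
  revert s; decide +kernel

theorem step (s : R8) (hs : s ∈ PP) (r : R8) (hr : T r) : T (RS.refl s r) := by
  intro i hi
  rw [RootSys.pair_refl, hr i hi]
  rcases (mem_PP s).1 hs with h | h | h | h
  · rw [T_D1 s (Or.inl h) i hi]; simp
  · rw [hr s h]; simp
  · rw [T_D1 s (Or.inr h) i hi]; simp
  · have h1 := hr _ h
    have h2 : RS.pair (RS.neg s) r = - RS.pair s r := RootSys.pair_neg_left _ _ _
    have h3 : RS.pair s r = 0 := by
      have : RS.pair (RS.neg s) r = 0 := h1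
      omega
    rw [h3]; simp

theorem pres {w : Equiv.Perm R8} (hw : w ∈ RS.WS PP) (r : R8) : T (w r) ↔ T r := by
  induction hw using Subgroup.closure_induction generalizing r with
  | mem x hx =>
    obtain ⟨s, hs, rfl⟩ := hx
    refine ⟨fun h => ?_, step s hs r⟩
    have h1 := step s hs _ h
    rwa [show RS.refl s (RS.refl s r) = r by rw [rootSys_refl (D := chevE8)]; exact rf_rf (D := chevE8) s r] at h1
  | one => rfl
  | mul x y _ _ hx hy => rw [Equiv.Perm.mul_apply, hx, hy]
  | inv x _ hx => rw [← hx (x⁻¹ r)]; simp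

theorem w0_not : w0 ∉ RS.WS PP := by
  intro h
  have h1 : T (130 : Fin 240) := T_D1 _ (Or.inl (by decide))
  have h2 := (pres h (130 : Fin 240)).2 h1
  have h3 : w0 (130 : Fin 240) ∈ D2 := (w0_D1 _).2.2 (by decide)
  have h4 := h2 _ h3
  rw [RootSys.pair_self] at h4
  exact absurd h4 (by decide)

end CL.E87.W0n
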