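/-
`E₈(3)`, `L₂(7)`: the stabiliser in the Weyl group.
-/
import Cfsg.Agent.KSG.E87.Rts

set_option autoImplicit false
set_option maxRecDepth 20000
set_option synthInstance.maxSize 2000
set_option synthInstance.maxHeartbeats 200000
set_option backward.isDefEq.respectTransparency false

namespace CL.E87.WStI
open Module Function Finset CL.Chev CL.AltE Cfsg.Lie CL.E81
open CL.E82 (R8)
open CL.E83 (K3 G3)
open Matrix hiding zpow_add zpow_mul zpow_sub one_zpow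

/-- pairing -/
abbrev pf (r s : Fin 240) : ℤ := (Good.C chevE8).pairF 8 r s
/-- coroot coordinates -/
abbrev cf (r : Fin 240) (i : Fin 8) : ℤ := (Good.C chevE8).cor r i

theorem search : ∀ x0 ∈ D1 ++ D2, ∀ x1 ∈ D1 ++ D2, pf x0 x1 = -1 → ∀ x2 ∈ D1 ++ D2, pf x0 x2 = -1 → pf x1 x2 = 0 →
    (∀ i, (2 : ℤ) ∣ cf x1 i + cf x2 i - a1 i) → ∀ x3 ∈ D1 ++ D2, pf x0 x3 = -1 → pf x1 x3 = 0 → pf x2 x3 = 0 →
    (∀ i, (2 : ℤ) ∣ cf x2 i + cf x3 i - a2 i) →
    (x0 = 130 ∧ x1 = 141 ∧ x2 = 135 ∧ x3 = 126) ∨ (x0 = 120 ∧ x1 = 159 ∧ x2 = 121 ∧ x3 = 226) := by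
  decide +kernel

/-- the base in coroot coordinates -/
def BM : Matrix (Fin 8) (Fin 8) ℤ := Matrix.of fun i j => cf (bs i) j
/-- twice its inverse -/
def CM : Matrix (Fin 8) (Fin 8) ℤ := !![-2, -1, -2, -1, 0, -1, 0, 1; 0, 2, 0, 0, 0, 0, 0, 0; 0, 0, 2, 0, 0, 0, 0, 0;
  2, 0, 0, 0, 0, 0, 0, 0; 0, 0, 0, 2, 0, 0, 0, 0; -2, -1, -1, -2, 0, 1, -1, 0; 0, 0, 0, 0, 0, 0, 2, 0; 0, 0, 0, 0, 2, 0, 0, 0]

theorem CB : CM * BM = (2 : ℤ) • (1 : Matrix (Fin 8) (Fin 8) ℤ) := by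
  decide +kernel

theorem co_eq (r : R8) : RS.co r = cf r := funext fun i => cor_eq (D := chevE8) r i

theorem co_inj : ∀ r s : R8, RS.co r = RS.co s → r = s := fun r s h => by
  rw [co_eq, co_eq] at h
  refine co_injective (D := chevE8) (funext fun i => ?_)
  have e : ∀ (r : R8) (i : Fin 8), co (D := chevE8) r i = cf r i := by decide +kernel
  rw [e, e, h]

/-- the matrix of a Weyl group element -/
abbrev cM (w : Equiv.Perm R8) : Matrix (Fin 8) (Fin 8) ℤ := RS.coM w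

theorem coW {w : Equiv.Perm R8} (hw : w ∈ RS.W) (r : R8) : cf (w r) = cf r ᵥ* cM w := by
  rw [← co_eq, ← co_eq]; exact RootSys.co_W hw r

theorem eq_of_bs {w w' : Equiv.Perm R8} (hw : w ∈ RS.W) (hw' : w' ∈ RS.W) (h : ∀ i, w (bs i) = w' (bs i)) : w = w' := by
  have e : ∀ {w : Equiv.Perm R8}, w ∈ RS.W → BM * cM w = Matrix.of fun i => cf (w (bs i)) := fun hw => by
    ext i j
    rw [Matrix.of_apply, coW hw]
    rfl
  have e2 : CM * (BM * cM w) = CM * (BM * cM w') := by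
    rw [e hw, e hw']; simp only [h]
  rw [← Matrix.mul_assoc, ← Matrix.mul_assoc, CB, Matrix.smul_mul, Matrix.smul_mul, Matrix.one_mul, Matrix.one_mul] at e2
  have e3 := smul_right_injective _ (two_ne_zero (α := ℤ)) e2
  exact Equiv.ext fun r => co_inj _ _ (by rw [co_eq, co_eq, coW hw, coW hw', e3])

theorem cong {w : Equiv.Perm R8} (hw : w ∈ RS.W) {a : Fin 8 → ℤ}
    (h : (RS.act w fun i => (-1 : K3ˣ) ^ a i) = fun i => (-1 : K3ˣ) ^ a i) {r s : R8} (c : Fin 8 → ℤ)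
    (e : cf r + cf s = a + (2 : ℤ) • c) (i : Fin 8) : (2 : ℤ) ∣ cf (w r) i + cf (w s) i - a i := by
  have h1 : (-1 : K3ˣ) ^ (a ᵥ* cM w) i = (-1 : K3ˣ) ^ a i :=
    congrFun ((RootSys.act_zpow_const (R := RS) w (-1 : K3ˣ) a).symm.trans h) i
  rw [zpow_eq_zpow_iff_modEq, ord_neg, Int.modEq_iff_dvd] at h1
  have h2 : cf (w r) + cf (w s) = a ᵥ* cM w + (2 : ℤ) • (c ᵥ* cM w) := by
    rw [coW hw, coW hw, ← add_vecMul, e, add_vecMul, smul_vecMul]
  have h3 := congrFun h2 i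
  simp only [Pi.add_apply, Pi.smul_apply, smul_eq_mul] at h3
  rw [h3]
  obtain ⟨k, hk⟩ := h1
  exact ⟨(c ᵥ* cM w) i - k, by push_cast at hk; linear_combination -hk⟩

theorem wstB {w : Equiv.Perm R8} (hw : w ∈ RS.W) (h1 : RS.act w t1 = t1) (h2 : RS.act w t2 = t2)
    (hp : ∀ i, RS.IsPos (w (bs i))) : w = 1 ∨ w = w0 := by
  have m : ∀ i, (w (bs i) : Fin 240) ∈ D1 ++ D2 := fun i =>
    List.mem_append.2 ((mem_PQ _).1 ⟨hp i, (PP_of_act hw h1 h2 _).2 (base_PP.mem i)⟩)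
  have p : ∀ i j, pf (w (bs i)) (w (bs j)) = pf (bs i) (bs j) := fun i j => by
    have := RootSys.W_pair hw (bs i) (bs j)
    rwa [rootSys_pair', rootSys_pair'] at this
  have A := search _ (m 0) _ (m 1) (by rw [p]; decide +kernel) _ (m 2) (by rw [p]; decide +kernel)
    (by rw [p]; decide +kernel) (cong hw h1 0 (by decide +kernel)) _ (m 3) (by rw [p]; decide +kernel)
    (by rw [p]; decide +kernel) (by rw [p]; decide +kernel) (cong hw h2 0 (by decide +kernel))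
  have B := search _ (m 4) _ (m 5) (by rw [p]; decide +kernel) _ (m 6) (by rw [p]; decide +kernel)
    (by rw [p]; decide +kernel) (cong hw h1 ![0, 0, 0, 1, 1, 1, 1, 0] (by decide +kernel)) _ (m 7)
    (by rw [p]; decide +kernel) (by rw [p]; decide +kernel) (by rw [p]; decide +kernel)
    (cong hw h2 ![1, 1, 1, 2, 1, 1, 1, 0] (by decide +kernel))
  have n : w (bs 0) ≠ w (bs 4) := fun e => absurd (w.injective e) (by decide)
  rcases A with ⟨a0, a1, a2, a3⟩ | ⟨a0, a1, a2, a3⟩ <;> rcases B with ⟨b0, b1, b2, b3⟩ | ⟨b0, b1, b2, b3⟩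
  · exact absurd (a0.trans b0.symm) n
  · refine Or.inl (eq_of_bs hw (one_mem _) fun i => ?_)
    fin_cases i
    exacts [a0, a1, a2, a3, b0, b1, b2, b3]
  · refine Or.inr (eq_of_bs hw w0_mem fun i => ?_)
    have e : ∀ i, w0 (bs i) = (![120, 159, 121, 226, 130, 141, 135, 126] : Fin 8 → Fin 240) i := fun i => by
      rw [w0_apply]; revert i; decide +kernel
    rw [e]
    fin_cases i
    exacts [a0, a1, a2, a3, b0, b1, b2, b3]
  · exact absurd (a0.trans b0.symm) n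

end CL.E87.WStI
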